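import Mathlib
import Cfsg.Prelude.Def_FusionComponents
import Cfsg.Agent.Lib.Helper43.SpSylow
import Cfsg.Agent.H84.PslStmt

set_option autoImplicit false

/-!
# Piece statements for S5171 (defining-characteristic fusion system of `PSp_{2m}(q)` is simple)

All piece statements are `Prop`-valued definitions; a piece is landed as `theorem main : SpStmt.X`.
Setting (from `Cfsg.Agent.Lib.Helper43.SpSylow` / `SpBasic`): `U` is the standard Sylow `p`-subgroup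
of `Sp_{2m}(F)` (block matrices `mk a s = [a, s a⁻ᵀ; 0, a⁻ᵀ]`, `a` upper unitriangular, `s`
symmetric), `PU = U.map pr` its image in `PSp`.  Multiplication: `mk a s * mk a' s' =
mk (a a') (s + a s' aᵀ)` (`mk_mul` below).
-/

namespace Cfsg.Agent.Lib.Helper52.SpStmt

open Matrix Cfsg.Agent.Lib.Helper43.SpBasic Cfsg.Agent.Lib.Helper43.SpSylow
open Cfsg.Agent.Lib.Helper43.PSLnUT (IsUT isUT_one)

universe u

/-! ## abstract part -/

/-- Abstract data on a subgroup `S` of `G` (in use a Sylow `p`-subgroup) making the fusion system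
of `G` on `S` simple through S5160. -/
structure CritData {G : Type*} [Group G] (p : ℕ) (S : Subgroup G) (ℛ : Set (Subgroup G)) :
    Prop where
  ne_bot : S ≠ ⊥
  closed : ∀ T : Subgroup G, T ≤ S → T ≠ ⊥ →
    (∀ t ∈ T, ∀ g : G, g * t * g⁻¹ ∈ S → g * t * g⁻¹ ∈ T) → T = S
  rad_le : ∀ R ∈ ℛ, R ≤ S
  rad_normal : ∀ R ∈ ℛ, ∀ s ∈ S, ∀ r ∈ R, s * r * s⁻¹ ∈ R
  rad_cent : ∀ R ∈ ℛ, ∀ g : G, (∀ r ∈ R, g * r = r * g) → g ∈ R
  rad_opp : ∀ R ∈ ℛ, ∃ n ∈ Subgroup.normalizer (R : Set G), ∀ x ∈ S, n * x * n⁻¹ ∈ S → x ∈ R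
  norm_gen : Subgroup.normalizer (S : Set G) ≤ Subgroup.closure
    {h : G | h ∈ Subgroup.normalizer (S : Set G) ∧ ∃ R ∈ ℛ,
      h ∈ Subgroup.closure {k : G | k ∈ Subgroup.normalizer (R : Set G) ∧
        ∃ e : ℕ, orderOf k = p ^ e}}

/-- [SC] a strongly closed subgroup contains every `G`-conjugate of its elements lying in `S` -/
def SCUnpack : Prop :=
  ∀ {G : Type u} [Group G] (S T : Subgroup G),
    (Cfsg.groupFusionSystem S).StronglyClosed T →
    T ≤ S ∧ ∀ t ∈ T, ∀ g : G, g * t * g⁻¹ ∈ S → g * t * g⁻¹ ∈ T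

/-- [RAD] `R ⊴ S` self-centralizing in `G`, with `n ∈ N_G(R)` such that `S ∩ n⁻¹ S n ≤ R`,
is radical -/
def RadicalOfCore : Prop :=
  ∀ {G : Type u} [Group G] [Finite G] (p : ℕ) [Fact p.Prime] (S : Sylow p G) (R : Subgroup G)
    (_ : R ≤ (S : Subgroup G)) (_ : ∀ s ∈ (S : Subgroup G), ∀ r ∈ R, s * r * s⁻¹ ∈ R)
    (_ : ∀ g : G, (∀ r ∈ R, g * r = r * g) → g ∈ R)
    (_ : ∃ n ∈ Subgroup.normalizer (R : Set G),
      ∀ x ∈ (S : Subgroup G), n * x * n⁻¹ ∈ (S : Subgroup G) → x ∈ R),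
    (Cfsg.groupFusionSystem (S : Subgroup G)).IsRadical p R

/-- [AUT] if `N_G(S)` is generated by its elements lying in the subgroups `K R` (`P R`), then
`Aut_G(S)` is the join of the `Aut_{K R}(S)` -/
def AutGen : Prop :=
  ∀ {G : Type u} [Group G] (S : Subgroup G) (P : Subgroup G → Prop)
    (K : Subgroup G → Subgroup G)
    (_ : Subgroup.normalizer (S : Set G) ≤ Subgroup.closure
      {h : G | h ∈ Subgroup.normalizer (S : Set G) ∧ ∃ R : Subgroup G, P R ∧ h ∈ K R}),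
    Cfsg.autInducedBy ⊤ S = ⨆ (R : Subgroup G) (_ : P R), Cfsg.autInducedBy (K R) S

/-- [CRIT] the criterion -/
def Crit : Prop :=
  ∀ {G : Type u} [Group G] [Finite G] (p : ℕ) [Fact p.Prime] (S : Sylow p G)
    (ℛ : Set (Subgroup G)) (_ : CritData p (S : Subgroup G) ℛ),
    (Cfsg.groupFusionSystem (S : Subgroup G)).IsSimple p

/-- [CRITP] the criterion from its parts (use `Cfsg.Agent.S5160.result`) -/
def CritOfParts : Prop :=
  SCUnpack.{u} → RadicalOfCore.{u} → AutGen.{u} →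
    Cfsg.Agent.H84.PslStmt.FullyNormalizedOfNormal.{u} →
    Cfsg.Agent.H84.PslStmt.CentricOfCent.{u} → Crit.{u}

/-- [MAP] the data is transported by inner automorphisms -/
def MapConj : Prop :=
  ∀ {G : Type u} [Group G] {p : ℕ} {S : Subgroup G} {ℛ : Set (Subgroup G)}
    (_ : CritData p S ℛ) (g : G),
    CritData p (S.map (MulAut.conj g).toMonoidHom)
      ((fun R : Subgroup G => R.map (MulAut.conj g).toMonoidHom) '' ℛ)

/-! ## matrix part: definitions -/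

section Mat

variable {m : ℕ} {F : Type*} [Field F]

/-- the symmetric matrix `a E_{i0 i0} + c (E_{i0 i1} + E_{i1 i0})` (shape of the centre of `U`) -/
def zmat (i0 i1 : Fin m) (a c : F) : Matrix (Fin m) (Fin m) F :=
  Matrix.single i0 i0 a + (Matrix.single i0 i1 c + Matrix.single i1 i0 c)

/-- the symmetric matrix `b (E_{ij} + E_{ji})` -/
def altm (i j : Fin m) (b : F) : Matrix (Fin m) (Fin m) F :=
  Matrix.single i j b + Matrix.single j i b

theorem altm_isSymm (i j : Fin m) (b : F) : (altm i j b).IsSymm := by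
  unfold altm Matrix.IsSymm
  rw [Matrix.transpose_add, Matrix.transpose_single, Matrix.transpose_single, add_comm]

theorem zmat_isSymm (i0 i1 : Fin m) (a c : F) : (zmat i0 i1 a c).IsSymm := by
  unfold zmat Matrix.IsSymm
  rw [Matrix.transpose_add, Matrix.transpose_add, Matrix.transpose_single,
    Matrix.transpose_single, Matrix.transpose_single, add_comm (Matrix.single i1 i0 c)]

theorem isUT_one_add_single {i j : Fin m} (h : i < j) (b : F) :
    IsUT (1 + Matrix.single i j b) := by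
  constructor
  · intro k l hlk
    rw [Matrix.add_apply, Matrix.one_apply_ne (ne_of_gt hlk), zero_add,
      Matrix.single_apply_of_ne]
    rintro ⟨rfl, rfl⟩
    exact absurd hlk (not_lt.2 (le_of_lt h))
  · intro k
    rw [Matrix.add_apply, Matrix.one_apply_eq, Matrix.single_apply_of_ne, add_zero]
    rintro ⟨rfl, h2⟩
    exact absurd h2.symm (ne_of_lt h)

variable [Finite F]

/-- multiplication in `U`: `(a, s) (a', s') = (a a', s + a s' aᵀ)` -/
theorem mk_mul (a s a' s' : Matrix (Fin m) (Fin m) F) (ha : IsUT a) (hs : s.IsSymm)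
    (ha' : IsUT a') (hs' : s'.IsSymm) (h1 : IsUT (a * a')) (h2 : (s + a * s' * aᵀ).IsSymm) :
    mk a s ha hs * mk a' s' ha' hs' = mk (a * a') (s + a * s' * aᵀ) h1 h2 := by
  apply Subtype.ext
  show mkMat a s * mkMat a' s' = mkMat (a * a') (s + a * s' * aᵀ)
  have hdet : IsUnit (aᵀ).det := by
    rw [Matrix.det_transpose, ha.det]; exact isUnit_one
  unfold mkMat
  rw [Matrix.fromBlocks_multiply, Matrix.transpose_mul, Matrix.mul_inv_rev]
  simp only [Matrix.mul_zero, Matrix.zero_mul, add_zero, zero_add]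
  have e1 : a * s' * aᵀ * (aᵀ⁻¹ * a'ᵀ⁻¹) = a * (s' * a'ᵀ⁻¹) := by
    rw [Matrix.mul_assoc a s', Matrix.mul_assoc a, Matrix.mul_assoc s',
      ← Matrix.mul_assoc aᵀ, Matrix.mul_nonsing_inv _ hdet, Matrix.one_mul]
  have e2 : s * (aᵀ⁻¹ * a'ᵀ⁻¹) = s * aᵀ⁻¹ * a'ᵀ⁻¹ := by rw [Matrix.mul_assoc]
  rw [Matrix.add_mul, e1, e2, add_comm]

theorem mk_one_mul (s s' : Matrix (Fin m) (Fin m) F) (hs : s.IsSymm) (hs' : s'.IsSymm)
    (h : (s + s').IsSymm) :
    mk 1 s isUT_one hs * mk 1 s' isUT_one hs' = mk 1 (s + s') isUT_one h := by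
  have h1 : IsUT ((1 : Matrix (Fin m) (Fin m) F) * 1) := by rw [Matrix.mul_one]; exact isUT_one
  have h2 : (s + 1 * s' * (1 : Matrix (Fin m) (Fin m) F)ᵀ).IsSymm := by
    rw [Matrix.one_mul, Matrix.transpose_one, Matrix.mul_one]; exact h
  rw [mk_mul 1 s 1 s' isUT_one hs isUT_one hs' h1 h2]
  apply Subtype.ext
  show mkMat _ _ = mkMat _ _
  rw [Matrix.mul_one, Matrix.one_mul, Matrix.transpose_one, Matrix.mul_one]

/-- `mk a s = mk 1 s * mk a 0` -/
theorem mk_eq_mul (a s : Matrix (Fin m) (Fin m) F) (ha : IsUT a) (hs : s.IsSymm) :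
    mk a s ha hs = mk 1 s isUT_one hs * mk a 0 ha Matrix.isSymm_zero := by
  have h1 : IsUT ((1 : Matrix (Fin m) (Fin m) F) * a) := by rw [Matrix.one_mul]; exact ha
  have h2 : (s + 1 * (0 : Matrix (Fin m) (Fin m) F) * (1 : Matrix (Fin m) (Fin m) F)ᵀ).IsSymm := by
    rw [Matrix.mul_zero, Matrix.zero_mul, add_zero]; exact hs
  rw [mk_mul 1 s a 0 isUT_one hs ha Matrix.isSymm_zero h1 h2]
  apply Subtype.ext
  show mkMat _ _ = mkMat _ _
  rw [Matrix.one_mul, Matrix.mul_zero, Matrix.zero_mul, add_zero]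

theorem mk_one_zero : mk (1 : Matrix (Fin m) (Fin m) F) 0 isUT_one Matrix.isSymm_zero = 1 := by
  apply Subtype.ext
  show mkMat (1 : Matrix (Fin m) (Fin m) F) 0 = 1
  unfold mkMat
  rw [Matrix.zero_mul, Matrix.transpose_one, inv_one, Matrix.fromBlocks_one]

/-- every element of `U` is some `mk a s` -/
theorem exists_mk {A : Matrix.symplecticGroup (Fin m) F} (hA : A ∈ U) :
    ∃ (a s : Matrix (Fin m) (Fin m) F) (ha : IsUT a) (hs : s.IsSymm), A = mk a s ha hs := by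
  refine ⟨_, _, hA.2, symm_of_mem hA, ?_⟩
  have := equivU.left_inv (⟨A, hA⟩ : ↥(U : Subgroup (Matrix.symplecticGroup (Fin m) F)))
  exact (congrArg Subtype.val this).symm

/-- the Siegel radical `{mk 1 s}` (as a closure; the set is already a subgroup) -/
def QS (m : ℕ) (F : Type*) [Field F] [Finite F] : Subgroup (Matrix.symplecticGroup (Fin m) F) :=
  Subgroup.closure {x | ∃ (s : Matrix (Fin m) (Fin m) F) (hs : s.IsSymm), x = mk 1 s isUT_one hs}

/-- the subgroup `{mk a s | s (m-1) (m-1) = 0}` of `U` (as a closure; the set is already a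
subgroup, the kernel of `mk a s ↦ s (m-1) (m-1)`) -/
def R2S (m : ℕ) (F : Type*) [Field F] [Finite F] : Subgroup (Matrix.symplecticGroup (Fin m) F) :=
  Subgroup.closure {x | ∃ (a s : Matrix (Fin m) (Fin m) F) (ha : IsUT a) (hs : s.IsSymm),
    (∀ i : Fin m, (i : ℕ) + 1 = m → s i i = 0) ∧ x = mk a s ha hs}

/-- image of the Siegel radical in `PSp` -/
def RQ (m : ℕ) (F : Type*) [Field F] [Finite F] : Subgroup (Cfsg.PSp m F) := (QS m F).map pr

/-- image of `R2S` in `PSp` -/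
def R2 (m : ℕ) (F : Type*) [Field F] [Finite F] : Subgroup (Cfsg.PSp m F) := (R2S m F).map pr

/-- the two radical subgroups -/
def Rset (m : ℕ) (F : Type*) [Field F] [Finite F] : Set (Subgroup (Cfsg.PSp m F)) :=
  {RQ m F, R2 m F}

end Mat

/-! ## matrix part: strongly closed subgroups -/

/-- [CM] a nontrivial normal subgroup of `PU` contains a nontrivial central element
`mk 1 (a E_00 + c (E_01 + E_10))`, with `c = 0` unless the characteristic is `2` -/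
def CenterMeet : Prop :=
  ∀ (m : ℕ) (F : Type u) [Field F] [Fintype F] (p : ℕ) [Fact p.Prime] [CharP F p] (_ : 2 ≤ m)
    (i0 i1 : Fin m) (_ : (i0 : ℕ) = 0) (_ : (i1 : ℕ) = 1)
    (T : Subgroup (Cfsg.PSp m F)) (_ : T ≤ PU) (_ : T ≠ ⊥)
    (_ : ∀ s ∈ (PU : Subgroup (Cfsg.PSp m F)), ∀ t ∈ T, s * t * s⁻¹ ∈ T),
    ∃ (a c : F) (hs : (zmat i0 i1 a c).IsSymm), (a ≠ 0 ∨ c ≠ 0) ∧ (c = 0 ∨ (2 : F) = 0) ∧
      pr (mk 1 (zmat i0 i1 a c) isUT_one hs) ∈ T

/-- [LC] Levi conjugation: `mk 1 s` is conjugate in `Sp` to `mk 1 (A s Aᵀ)` for invertible `A` -/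
def LeviConj : Prop :=
  ∀ (m : ℕ) (F : Type u) [Field F] [Fintype F] (A s : Matrix (Fin m) (Fin m) F)
    (_ : IsUnit A.det) (hs : s.IsSymm) (hs' : (A * s * Aᵀ).IsSymm),
    ∃ g : Matrix.symplecticGroup (Fin m) F,
      g * mk 1 s isUT_one hs * g⁻¹ = mk 1 (A * s * Aᵀ) isUT_one hs'

/-- [SS] pure linear algebra: an additive subgroup of matrices stable under congruence
`M ↦ A M Aᵀ` (`A` invertible) containing a nonzero `a E_00 + c (E_01 + E_10)` contains all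
`b (E_ij + E_ji)`, and all symmetric matrices unless the characteristic is `2` and `a = 0` -/
def SymSpan : Prop :=
  ∀ (m : ℕ) (F : Type u) [Field F] [Fintype F] (_ : 2 ≤ m) (_ : m = 2 → 3 ≤ Fintype.card F)
    (T0 : AddSubgroup (Matrix (Fin m) (Fin m) F))
    (_ : ∀ A : Matrix (Fin m) (Fin m) F, IsUnit A.det → ∀ M ∈ T0, A * M * Aᵀ ∈ T0)
    (i0 i1 : Fin m) (_ : (i0 : ℕ) = 0) (_ : (i1 : ℕ) = 1) (a c : F) (_ : a ≠ 0 ∨ c ≠ 0)
    (_ : c = 0 ∨ (2 : F) = 0) (_ : zmat i0 i1 a c ∈ T0),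
    (∀ i j : Fin m, i ≠ j → ∀ b : F, altm i j b ∈ T0) ∧
      (((2 : F) ≠ 0 ∨ a ≠ 0) → ∀ M : Matrix (Fin m) (Fin m) F, M.IsSymm → M ∈ T0)

/-- [WC] Weyl conjugation: the Levi root element `mk (1 + b E_ij) 0` (`i < j`) is conjugate in
`Sp` to some `mk 1 (b' (E_ij + E_ji))` -/
def WeylConj : Prop :=
  ∀ (m : ℕ) (F : Type u) [Field F] [Fintype F] (i j : Fin m) (_ : i < j) (b : F)
    (hu : IsUT (1 + Matrix.single i j b)) (hz : (0 : Matrix (Fin m) (Fin m) F).IsSymm),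
    ∃ (g : Matrix.symplecticGroup (Fin m) F) (b' : F) (hs : (altm i j b').IsSymm),
      g * mk 1 (altm i j b') isUT_one hs * g⁻¹ = mk (1 + Matrix.single i j b) 0 hu hz

/-- [C2] characteristic `2`: `mk 1 (E_01 + E_10)` is conjugate in `Sp` to
`mk (1 + E_01) (E_00 + E_01 + E_10)` (conjugate by the transvection `t (f 1) 1`) -/
def Char2Conj : Prop :=
  ∀ (m : ℕ) (F : Type u) [Field F] [Fintype F] (_ : (2 : F) = 0)
    (i0 i1 : Fin m) (_ : (i0 : ℕ) = 0) (_ : (i1 : ℕ) = 1)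
    (hs : (altm i0 i1 (1 : F)).IsSymm) (hu : IsUT (1 + Matrix.single i0 i1 (1 : F)))
    (hs' : (zmat i0 i1 (1 : F) 1).IsSymm),
    ∃ g : Matrix.symplecticGroup (Fin m) F,
      g * mk 1 (altm i0 i1 1) isUT_one hs * g⁻¹ =
        mk (1 + Matrix.single i0 i1 1) (zmat i0 i1 1 1) hu hs'

/-- [UG] `U` is generated by the `mk 1 s` and the Levi root elements `mk (1 + b E_ij) 0` -/
def UGen : Prop :=
  ∀ (m : ℕ) (F : Type u) [Field F] [Fintype F] (A : Matrix.symplecticGroup (Fin m) F)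
    (_ : A ∈ (U : Subgroup (Matrix.symplecticGroup (Fin m) F))),
    ∃ (s : Matrix (Fin m) (Fin m) F) (hs : s.IsSymm),
      ∃ L ∈ Subgroup.closure {x : Matrix.symplecticGroup (Fin m) F |
          ∃ (i j : Fin m) (_ : i < j) (b : F) (hu : IsUT (1 + Matrix.single i j b))
            (hz : (0 : Matrix (Fin m) (Fin m) F).IsSymm),
            x = mk (1 + Matrix.single i j b) 0 hu hz},
        A = mk 1 s isUT_one hs * L

/-- [CL] a nontrivial subgroup of `PU` closed under `PSp`-conjugates lying in `PU` is `PU` -/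
def Closed : Prop :=
  ∀ (m : ℕ) (F : Type u) [Field F] [Fintype F] (p : ℕ) [Fact p.Prime] [CharP F p] (_ : 2 ≤ m)
    (_ : m = 2 → 3 ≤ Fintype.card F) (T : Subgroup (Cfsg.PSp m F)) (_ : T ≤ PU) (_ : T ≠ ⊥)
    (_ : ∀ t ∈ T, ∀ g : Cfsg.PSp m F, g * t * g⁻¹ ∈ (PU : Subgroup (Cfsg.PSp m F)) →
      g * t * g⁻¹ ∈ T),
    T = PU

/-- [CLP] `Closed` from its parts -/
def ClosedOfParts : Prop :=
  CenterMeet.{u} → LeviConj.{u} → SymSpan.{u} → WeylConj.{u} → Char2Conj.{u} → UGen.{u} →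
    Closed.{u}

/-! ## matrix part: the two radical subgroups -/

/-- [RQB] `RQ` is a normal subgroup of `PU` -/
def RQBasic : Prop :=
  ∀ (m : ℕ) (F : Type u) [Field F] [Fintype F],
    RQ m F ≤ PU ∧ ∀ s ∈ (PU : Subgroup (Cfsg.PSp m F)), ∀ r ∈ RQ m F, s * r * s⁻¹ ∈ RQ m F

/-- [RQC] `RQ` contains its centralizer in `PSp` -/
def RQCent : Prop :=
  ∀ (m : ℕ) (F : Type u) [Field F] [Fintype F] (p : ℕ) [Fact p.Prime] [CharP F p] (_ : 1 ≤ m)
    (g : Cfsg.PSp m F), (∀ r ∈ RQ m F, g * r = r * g) → g ∈ RQ m F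

/-- [RQO] some `n ∈ N(RQ)` has `PU ∩ n⁻¹ PU n ≤ RQ` (e.g. the image of the Levi element of the
order-reversing permutation matrix) -/
def RQOpp : Prop :=
  ∀ (m : ℕ) (F : Type u) [Field F] [Fintype F] (p : ℕ) [Fact p.Prime] [CharP F p] (_ : 1 ≤ m),
    ∃ n ∈ Subgroup.normalizer (RQ m F : Set (Cfsg.PSp m F)),
      ∀ x ∈ (PU : Subgroup (Cfsg.PSp m F)), n * x * n⁻¹ ∈ (PU : Subgroup (Cfsg.PSp m F)) →
        x ∈ RQ m F

/-- [R2B] `R2` is a normal subgroup of `PU` -/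
def R2Basic : Prop :=
  ∀ (m : ℕ) (F : Type u) [Field F] [Fintype F],
    R2 m F ≤ PU ∧ ∀ s ∈ (PU : Subgroup (Cfsg.PSp m F)), ∀ r ∈ R2 m F, s * r * s⁻¹ ∈ R2 m F

/-- [R2C] `R2` contains its centralizer in `PSp` (`m ≥ 2`) -/
def R2Cent : Prop :=
  ∀ (m : ℕ) (F : Type u) [Field F] [Fintype F] (p : ℕ) [Fact p.Prime] [CharP F p] (_ : 2 ≤ m)
    (g : Cfsg.PSp m F), (∀ r ∈ R2 m F, g * r = r * g) → g ∈ R2 m F

/-- [R2O] some `n ∈ N(R2)` has `PU ∩ n⁻¹ PU n ≤ R2` (e.g. the image of the Weyl element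
`e_{m-1} ↦ f_{m-1}, f_{m-1} ↦ -e_{m-1}`, or of the transvection `t (f (m-1)) 1`) -/
def R2Opp : Prop :=
  ∀ (m : ℕ) (F : Type u) [Field F] [Fintype F] (p : ℕ) [Fact p.Prime] [CharP F p] (_ : 1 ≤ m),
    ∃ n ∈ Subgroup.normalizer (R2 m F : Set (Cfsg.PSp m F)),
      ∀ x ∈ (PU : Subgroup (Cfsg.PSp m F)), n * x * n⁻¹ ∈ (PU : Subgroup (Cfsg.PSp m F)) →
        x ∈ R2 m F

/-! ## matrix part: the normalizer of `PU` -/

/-- [NL] an element of `Sp` whose image normalizes `PU` normalizes `U` -/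
def NormLift : Prop :=
  ∀ (m : ℕ) (F : Type u) [Field F] [Fintype F] (p : ℕ) [Fact p.Prime] [CharP F p] (_ : 1 ≤ m)
    (g0 : Matrix.symplecticGroup (Fin m) F)
    (_ : pr g0 ∈ Subgroup.normalizer ((PU : Subgroup (Cfsg.PSp m F)) : Set (Cfsg.PSp m F))),
    ∀ u ∈ (U : Subgroup (Matrix.symplecticGroup (Fin m) F)), g0 * u * g0⁻¹ ∈ U

/-- [NT1] an element of `Sp` normalizing `U` is block upper triangular with upper triangular
upper-left block -/
def NormTri1 : Prop :=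
  ∀ (m : ℕ) (F : Type u) [Field F] [Fintype F] (_ : 1 ≤ m)
    (g0 : Matrix.symplecticGroup (Fin m) F)
    (_ : ∀ u ∈ (U : Subgroup (Matrix.symplecticGroup (Fin m) F)), g0 * u * g0⁻¹ ∈ U),
    (g0 : Matrix (Fin m ⊕ Fin m) (Fin m ⊕ Fin m) F).toBlocks₂₁ = 0 ∧
      ∀ i j : Fin m, j < i → (g0 : Matrix (Fin m ⊕ Fin m) (Fin m ⊕ Fin m) F).toBlocks₁₁ i j = 0

/-- [NT2] a block upper triangular symplectic matrix with upper triangular upper-left block is
`d * u` with `d` diagonal and `u ∈ U` -/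
def NormTri2 : Prop :=
  ∀ (m : ℕ) (F : Type u) [Field F] [Fintype F]
    (g0 : Matrix.symplecticGroup (Fin m) F)
    (_ : (g0 : Matrix (Fin m ⊕ Fin m) (Fin m ⊕ Fin m) F).toBlocks₂₁ = 0)
    (_ : ∀ i j : Fin m, j < i →
      (g0 : Matrix (Fin m ⊕ Fin m) (Fin m ⊕ Fin m) F).toBlocks₁₁ i j = 0),
    ∃ d u : Matrix.symplecticGroup (Fin m) F,
      (∀ i j : Fin m ⊕ Fin m, i ≠ j → (d : Matrix (Fin m ⊕ Fin m) (Fin m ⊕ Fin m) F) i j = 0) ∧
        u ∈ (U : Subgroup (Matrix.symplecticGroup (Fin m) F)) ∧ g0 = d * u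

/-- [TS] a diagonal symplectic matrix is a product of one with upper-left determinant `1` and
one which is the identity outside the last hyperbolic pair -/
def TorusSplit : Prop :=
  ∀ (m : ℕ) (F : Type u) [Field F] [Fintype F] (_ : 1 ≤ m)
    (d : Matrix.symplecticGroup (Fin m) F)
    (_ : ∀ i j : Fin m ⊕ Fin m, i ≠ j → (d : Matrix (Fin m ⊕ Fin m) (Fin m ⊕ Fin m) F) i j = 0),
    ∃ dA dB : Matrix.symplecticGroup (Fin m) F,
      (∀ i j : Fin m ⊕ Fin m, i ≠ j →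
        (dA : Matrix (Fin m ⊕ Fin m) (Fin m ⊕ Fin m) F) i j = 0) ∧
      (∏ i : Fin m, (dA : Matrix (Fin m ⊕ Fin m) (Fin m ⊕ Fin m) F) (Sum.inl i) (Sum.inl i)
        = 1) ∧
      (∀ i j : Fin m ⊕ Fin m, i ≠ j →
        (dB : Matrix (Fin m ⊕ Fin m) (Fin m ⊕ Fin m) F) i j = 0) ∧
      (∀ i : Fin m, (i : ℕ) + 1 ≠ m →
        (dB : Matrix (Fin m ⊕ Fin m) (Fin m ⊕ Fin m) F) (Sum.inl i) (Sum.inl i) = 1) ∧
      d = dA * dB

/-- [TA] the image of a diagonal symplectic matrix with upper-left determinant `1` normalizes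
`PU` and lies in the subgroup generated by the `p`-elements of `N(RQ)` (it is the Levi image of
a product of transvections of `SL_m`) -/
def TorusA : Prop :=
  ∀ (m : ℕ) (F : Type u) [Field F] [Fintype F] (p : ℕ) [Fact p.Prime] [CharP F p] (_ : 1 ≤ m)
    (d : Matrix.symplecticGroup (Fin m) F)
    (_ : ∀ i j : Fin m ⊕ Fin m, i ≠ j → (d : Matrix (Fin m ⊕ Fin m) (Fin m ⊕ Fin m) F) i j = 0)
    (_ : ∏ i : Fin m, (d : Matrix (Fin m ⊕ Fin m) (Fin m ⊕ Fin m) F) (Sum.inl i) (Sum.inl i)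
      = 1),
    pr d ∈ Subgroup.normalizer ((PU : Subgroup (Cfsg.PSp m F)) : Set (Cfsg.PSp m F)) ∧
      pr d ∈ Subgroup.closure {k : Cfsg.PSp m F |
        k ∈ Subgroup.normalizer (RQ m F : Set (Cfsg.PSp m F)) ∧ ∃ e : ℕ, orderOf k = p ^ e}

/-- [TB] the image of a diagonal symplectic matrix which is the identity outside the last
hyperbolic pair normalizes `PU` and lies in the subgroup generated by the `p`-elements of
`N(R2)` (it is a product of transvections `t (e (m-1)) c`, `t (f (m-1)) c`) -/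
def TorusB : Prop :=
  ∀ (m : ℕ) (F : Type u) [Field F] [Fintype F] (p : ℕ) [Fact p.Prime] [CharP F p] (_ : 1 ≤ m)
    (d : Matrix.symplecticGroup (Fin m) F)
    (_ : ∀ i j : Fin m ⊕ Fin m, i ≠ j → (d : Matrix (Fin m ⊕ Fin m) (Fin m ⊕ Fin m) F) i j = 0)
    (_ : ∀ i : Fin m, (i : ℕ) + 1 ≠ m →
      (d : Matrix (Fin m ⊕ Fin m) (Fin m ⊕ Fin m) F) (Sum.inl i) (Sum.inl i) = 1),
    pr d ∈ Subgroup.normalizer ((PU : Subgroup (Cfsg.PSp m F)) : Set (Cfsg.PSp m F)) ∧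
      pr d ∈ Subgroup.closure {k : Cfsg.PSp m F |
        k ∈ Subgroup.normalizer (R2 m F : Set (Cfsg.PSp m F)) ∧ ∃ e : ℕ, orderOf k = p ^ e}

/-- [NG] generation of the normalizer of `PU` -/
def NormGen : Prop :=
  ∀ (m : ℕ) (F : Type u) [Field F] [Fintype F] (p : ℕ) [Fact p.Prime] [CharP F p] (_ : 1 ≤ m),
    Subgroup.normalizer ((PU : Subgroup (Cfsg.PSp m F)) : Set (Cfsg.PSp m F)) ≤
      Subgroup.closure {h : Cfsg.PSp m F |
        h ∈ Subgroup.normalizer ((PU : Subgroup (Cfsg.PSp m F)) : Set (Cfsg.PSp m F)) ∧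
        ∃ R ∈ Rset m F, h ∈ Subgroup.closure {k : Cfsg.PSp m F |
          k ∈ Subgroup.normalizer (R : Set (Cfsg.PSp m F)) ∧ ∃ e : ℕ, orderOf k = p ^ e}}

/-- [NGP] `NormGen` from its parts -/
def NormGenOfParts : Prop :=
  NormLift.{u} → NormTri1.{u} → NormTri2.{u} → TorusSplit.{u} → TorusA.{u} → TorusB.{u} →
    RQBasic.{u} → NormGen.{u}

end Cfsg.Agent.Lib.Helper52.SpStmt
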