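import Mathlib
import Cfsg.Agent.Lib.Helper32.T3Stmt
import Cfsg.Agent.Lib.CT.FrobRec

/-!
# S3701: basic facts about the configuration `3^3 : 2^2` (helper52, self-contained)
-/

set_option autoImplicit false

namespace Cfsg.Agent.Lib.Helper52.T3Basics

open Cfsg
open Cfsg.Agent.Lib.Helper32.S9Stmt
open Cfsg.Agent.Lib.Helper32.T3Stmt

universe u

variable {G : Type u} [Group G] {T H : Subgroup G} {x1 x2 x3 u1 u2 u3 : G}

theorem mem_cent {x g : G} : g ∈ Subgroup.centralizer ({x} : Set G) ↔ g * x = x * g := by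
  rw [Subgroup.mem_centralizer_iff]
  constructor
  · intro h
    exact (h x rfl).symm
  · intro h z hz
    rw [Set.mem_singleton_iff.1 hz]
    exact h.symm

theorem x1_mem_T (hc : Cfg3 T H x1 x2 x3 u1 u2 u3) : x1 ∈ T :=
  (hc.memT x1).2 ⟨1, 0, 0, by simp⟩

theorem x2_mem_T (hc : Cfg3 T H x1 x2 x3 u1 u2 u3) : x2 ∈ T :=
  (hc.memT x2).2 ⟨0, 1, 0, by simp⟩

theorem x3_mem_T (hc : Cfg3 T H x1 x2 x3 u1 u2 u3) : x3 ∈ T :=
  (hc.memT x3).2 ⟨0, 0, 1, by simp⟩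

theorem comm_T (hc : Cfg3 T H x1 x2 x3 u1 u2 u3) {g : G} (h1 : Commute g x1)
    (h2 : Commute g x2) (h3 : Commute g x3) {t : G} (ht : t ∈ T) : Commute g t := by
  obtain ⟨i, j, k, rfl⟩ := (hc.memT t).1 ht
  exact ((h1.pow_right i).mul_right (h2.pow_right j)).mul_right (h3.pow_right k)

theorem T_comm (hc : Cfg3 T H x1 x2 x3 u1 u2 u3) {s t : G} (hs : s ∈ T) (ht : t ∈ T) :
    Commute s t := by
  have c1 : Commute x1 s := comm_T hc (Commute.refl x1) hc.c12 hc.c13 hs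
  have c2 : Commute x2 s :=
    comm_T hc (show Commute x1 x2 from hc.c12).symm (Commute.refl x2) hc.c23 hs
  have c3 : Commute x3 s :=
    comm_T hc (show Commute x1 x3 from hc.c13).symm (show Commute x2 x3 from hc.c23).symm
      (Commute.refl x3) hs
  exact comm_T hc c1.symm c2.symm c3.symm ht

theorem T_pow3 (hc : Cfg3 T H x1 x2 x3 u1 u2 u3) {t : G} (ht : t ∈ T) : t ^ 3 = 1 := by
  obtain ⟨i, j, k, rfl⟩ := (hc.memT t).1 ht
  have c12 : Commute (x1 ^ i) (x2 ^ j) := (show Commute x1 x2 from hc.c12).pow_pow i j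
  have c3 : Commute (x1 ^ i * x2 ^ j) (x3 ^ k) :=
    ((show Commute x1 x3 from hc.c13).pow_pow i k).mul_left
      ((show Commute x2 x3 from hc.c23).pow_pow j k)
  rw [c3.mul_pow, c12.mul_pow, ← pow_mul, ← pow_mul, ← pow_mul, mul_comm i 3, mul_comm j 3,
    mul_comm k 3, pow_mul, pow_mul, pow_mul, hc.x13, hc.x23, hc.x33]
  simp

theorem u1_inv (hc : Cfg3 T H x1 x2 x3 u1 u2 u3) : u1⁻¹ = u1 := by
  rw [inv_eq_iff_mul_eq_one, ← pow_two, hc.u1sq]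

theorem u2_inv (hc : Cfg3 T H x1 x2 x3 u1 u2 u3) : u2⁻¹ = u2 := by
  rw [inv_eq_iff_mul_eq_one, ← pow_two, hc.u2sq]

theorem u1_conj_T (hc : Cfg3 T H x1 x2 x3 u1 u2 u3) {t : G} (ht : t ∈ T) :
    u1 * t * u1⁻¹ ∈ T := by
  obtain ⟨i, j, k, rfl⟩ := (hc.memT t).1 ht
  have e : u1 * (x1 ^ i * x2 ^ j * x3 ^ k) * u1⁻¹ =
      (u1 * x1 * u1⁻¹) ^ i * (u1 * x2 * u1⁻¹) ^ j * (u1 * x3 * u1⁻¹) ^ k := by
    simp only [conj_pow]
    group
  have a11' : u1 * x1 * u1⁻¹ = x1 := by rw [hc.a11]; group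
  rw [e, hc.a12, hc.a13, a11']
  exact T.mul_mem (T.mul_mem (T.pow_mem (x1_mem_T hc) i)
    (T.pow_mem (T.inv_mem (x2_mem_T hc)) j)) (T.pow_mem (T.inv_mem (x3_mem_T hc)) k)

theorem T_le_C (hc : Cfg3 T H x1 x2 x3 u1 u2 u3) {t : G} (ht : t ∈ T) :
    t ∈ Subgroup.centralizer ({x1} : Set G) :=
  mem_cent.2 (T_comm hc ht (x1_mem_T hc)).eq

theorem x1_mem_C : x1 ∈ Subgroup.centralizer ({x1} : Set G) := mem_cent.2 rfl

theorem x2_mem_C (hc : Cfg3 T H x1 x2 x3 u1 u2 u3) :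
    x2 ∈ Subgroup.centralizer ({x1} : Set G) := T_le_C hc (x2_mem_T hc)

theorem x3_mem_C (hc : Cfg3 T H x1 x2 x3 u1 u2 u3) :
    x3 ∈ Subgroup.centralizer ({x1} : Set G) := T_le_C hc (x3_mem_T hc)

theorem u1_mem_C (hc : Cfg3 T H x1 x2 x3 u1 u2 u3) :
    u1 ∈ Subgroup.centralizer ({x1} : Set G) := mem_cent.2 hc.a11

theorem x1_ne_inv (hc : Cfg3 T H x1 x2 x3 u1 u2 u3) : x1⁻¹ ≠ x1 := by
  intro h
  apply hc.ne1
  have h2 : x1 ^ 2 = 1 := by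
    rw [pow_two]
    nth_rewrite 1 [← h]
    simp
  have e : x1 = x1 ^ 3 * (x1 ^ 2)⁻¹ := by group
  rw [e, hc.x13, h2]
  simp

theorem u2_not_mem_C (hc : Cfg3 T H x1 x2 x3 u1 u2 u3) :
    u2 ∉ Subgroup.centralizer ({x1} : Set G) := by
  intro h
  have h1 := mem_cent.1 h
  apply x1_ne_inv hc
  rw [← hc.a21, h1]
  group

theorem u3_not_mem_C (hc : Cfg3 T H x1 x2 x3 u1 u2 u3) :
    u3 ∉ Subgroup.centralizer ({x1} : Set G) := by
  intro h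
  have h1 := mem_cent.1 h
  apply x1_ne_inv hc
  rw [← hc.a31, h1]
  group

theorem C_le_H (hc : Cfg3 T H x1 x2 x3 u1 u2 u3) {v : G}
    (hv : v ∈ Subgroup.centralizer ({x1} : Set G)) : v ∈ H :=
  hc.loc x1 (x1_mem_T hc) hc.ne1 v (mem_cent.1 hv)

theorem C_cases (hc : Cfg3 T H x1 x2 x3 u1 u2 u3) {v : G}
    (hv : v ∈ Subgroup.centralizer ({x1} : Set G)) : ∃ t ∈ T, v = t ∨ v = t * u1 := by
  obtain ⟨t, ht, h | h | h | h⟩ := (hc.memH v).1 (C_le_H hc hv)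
  · exact ⟨t, ht, Or.inl h⟩
  · exact ⟨t, ht, Or.inr h⟩
  · exfalso
    apply u2_not_mem_C hc
    have e : u2 = t⁻¹ * v := by rw [h]; group
    rw [e]
    exact Subgroup.mul_mem _ (Subgroup.inv_mem _ (T_le_C hc ht)) hv
  · exfalso
    apply u3_not_mem_C hc
    have e : u3 = t⁻¹ * v := by rw [h]; group
    rw [e]
    exact Subgroup.mul_mem _ (Subgroup.inv_mem _ (T_le_C hc ht)) hv

theorem u2_mem_H (hc : Cfg3 T H x1 x2 x3 u1 u2 u3) : u2 ∈ H :=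
  (hc.memH u2).2 ⟨1, T.one_mem, Or.inr (Or.inr (Or.inl (by simp)))⟩

theorem H_cases (hc : Cfg3 T H x1 x2 x3 u1 u2 u3) {t : G} (ht : t ∈ H) :
    t ∈ Subgroup.centralizer ({x1} : Set G) ∨ t * u2 ∈ Subgroup.centralizer ({x1} : Set G) := by
  obtain ⟨s, hs, h | h | h | h⟩ := (hc.memH t).1 ht
  · left
    rw [h]
    exact T_le_C hc hs
  · left
    rw [h]
    exact Subgroup.mul_mem _ (T_le_C hc hs) (u1_mem_C hc)
  · right
    rw [h]
    have e : s * u2 * u2 = s := by rw [mul_assoc, ← pow_two, hc.u2sq, mul_one]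
    rw [e]
    exact T_le_C hc hs
  · right
    rw [h]
    have e : s * u3 * u2 = s * u1 := by rw [mul_assoc, hc.u32]
    rw [e]
    exact Subgroup.mul_mem _ (T_le_C hc hs) (u1_mem_C hc)

/-- `t * u2 ∈ C` forces `t ∈ H \ C`. -/
theorem mul_u2_mem (hc : Cfg3 T H x1 x2 x3 u1 u2 u3) {t : G}
    (ht : t * u2 ∈ Subgroup.centralizer ({x1} : Set G)) :
    t ∈ H ∧ t ∉ Subgroup.centralizer ({x1} : Set G) := by
  constructor
  · have e : t = (t * u2) * u2⁻¹ := by group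
    rw [e]
    exact H.mul_mem (C_le_H hc ht) (H.inv_mem (u2_mem_H hc))
  · intro h
    apply u2_not_mem_C hc
    have e : u2 = t⁻¹ * (t * u2) := by group
    rw [e]
    exact Subgroup.mul_mem _ (Subgroup.inv_mem _ h) ht

/-- values of homomorphisms on `C_G(x1)`. -/
theorem hom_val (hc : Cfg3 T H x1 x2 x3 u1 u2 u3)
    (v : Subgroup.centralizer ({x1} : Set G)) :
    ∃ i : ℕ, ∀ F : Subgroup.centralizer ({x1} : Set G) →* ℂˣ,
      F ⟨x2, x2_mem_C hc⟩ = 1 → F ⟨x3, x3_mem_C hc⟩ = 1 → F ⟨u1, u1_mem_C hc⟩ = 1 →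
      F v = F ⟨x1, x1_mem_C⟩ ^ i := by
  obtain ⟨t, ht, h⟩ := C_cases hc v.2
  obtain ⟨i, j, k, rfl⟩ := (hc.memT t).1 ht
  refine ⟨i, ?_⟩
  intro F h2 h3 h1
  rcases h with h | h
  · have e : v = (⟨x1, x1_mem_C⟩ : Subgroup.centralizer ({x1} : Set G)) ^ i *
        ⟨x2, x2_mem_C hc⟩ ^ j * ⟨x3, x3_mem_C hc⟩ ^ k := by
      apply Subtype.ext
      simp [h]
    rw [e, map_mul, map_mul, map_pow, map_pow, map_pow, h2, h3, one_pow, one_pow, mul_one,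
      mul_one]
  · have e : v = (⟨x1, x1_mem_C⟩ : Subgroup.centralizer ({x1} : Set G)) ^ i *
        ⟨x2, x2_mem_C hc⟩ ^ j * ⟨x3, x3_mem_C hc⟩ ^ k * ⟨u1, u1_mem_C hc⟩ := by
      apply Subtype.ext
      simp [h]
    rw [e, map_mul, map_mul, map_mul, map_pow, map_pow, map_pow, h2, h3, h1, one_pow, one_pow,
      mul_one, mul_one, mul_one]

theorem f_pow3 (hc : Cfg3 T H x1 x2 x3 u1 u2 u3)
    (f : Subgroup.centralizer ({x1} : Set G) →* ℂˣ) (hf : Om3 x1 x2 x3 u1 f)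
    (v : Subgroup.centralizer ({x1} : Set G)) : f v ^ 3 = 1 := by
  obtain ⟨i, hi⟩ := hom_val hc v
  rw [hi f (hf.fx2 _) (hf.fx3 _) (hf.fu1 _), ← pow_mul, mul_comm, pow_mul, ← map_pow]
  have e : (⟨x1, x1_mem_C⟩ : Subgroup.centralizer ({x1} : Set G)) ^ 3 = 1 := by
    apply Subtype.ext
    simp [hc.x13]
  rw [e, map_one, one_pow]

/-- conjugation by `u2` preserves `C_G(x1)`. -/
theorem conj_u2_mem (hc : Cfg3 T H x1 x2 x3 u1 u2 u3) {g : G}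
    (hg : g ∈ Subgroup.centralizer ({x1} : Set G)) :
    u2 * g * u2⁻¹ ∈ Subgroup.centralizer ({x1} : Set G) := by
  have h1 : Commute g x1 := mem_cent.1 hg
  have h2 : Commute (u2 * g * u2⁻¹) (u2 * x1 * u2⁻¹) := by
    show (u2 * g * u2⁻¹) * (u2 * x1 * u2⁻¹) = (u2 * x1 * u2⁻¹) * (u2 * g * u2⁻¹)
    calc (u2 * g * u2⁻¹) * (u2 * x1 * u2⁻¹) = u2 * (g * x1) * u2⁻¹ := by group
      _ = u2 * (x1 * g) * u2⁻¹ := by rw [h1.eq]
      _ = _ := by group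
  rw [hc.a21] at h2
  exact mem_cent.2 (Commute.inv_right_iff.1 h2).eq

/-- conjugation by `u2` as an endomorphism of `C_G(x1)`. -/
noncomputable def conjU2 (hc : Cfg3 T H x1 x2 x3 u1 u2 u3) :
    Subgroup.centralizer ({x1} : Set G) →* Subgroup.centralizer ({x1} : Set G) :=
  MonoidHom.mk' (fun v => ⟨u2 * v.1 * u2⁻¹, conj_u2_mem hc v.2⟩) (by
    intro a b
    apply Subtype.ext
    show u2 * (a.1 * b.1) * u2⁻¹ = (u2 * a.1 * u2⁻¹) * (u2 * b.1 * u2⁻¹)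
    group)

theorem conj_u2 (hc : Cfg3 T H x1 x2 x3 u1 u2 u3)
    (f : Subgroup.centralizer ({x1} : Set G) →* ℂˣ) (hf : Om3 x1 x2 x3 u1 f) (g : G)
    (hg : g ∈ Subgroup.centralizer ({x1} : Set G)) :
    f ⟨u2 * g * u2⁻¹, conj_u2_mem hc hg⟩ = (f ⟨g, hg⟩)⁻¹ := by
  obtain ⟨i, hi⟩ := hom_val hc ⟨g, hg⟩
  have e1 := hi f (hf.fx2 _) (hf.fx3 _) (hf.fu1 _)
  have e2 := hi (f.comp (conjU2 hc)) (by
      show f ⟨u2 * x2 * u2⁻¹, _⟩ = 1
      have e : u2 * x2 * u2⁻¹ = x2 := by rw [hc.a22]; group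
      have e' : (⟨u2 * x2 * u2⁻¹, conj_u2_mem hc (x2_mem_C hc)⟩ :
          Subgroup.centralizer ({x1} : Set G)) = ⟨x2, x2_mem_C hc⟩ := Subtype.ext e
      rw [e']
      exact hf.fx2 _) (by
      show f ⟨u2 * x3 * u2⁻¹, _⟩ = 1
      have e' : (⟨u2 * x3 * u2⁻¹, conj_u2_mem hc (x3_mem_C hc)⟩ :
          Subgroup.centralizer ({x1} : Set G)) = (⟨x3, x3_mem_C hc⟩)⁻¹ := Subtype.ext hc.a23
      rw [e', map_inv, hf.fx3, inv_one]) (by
      show f ⟨u2 * u1 * u2⁻¹, _⟩ = 1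
      have e : u2 * u1 * u2⁻¹ = u1 := by rw [hc.u21, ← hc.u12]; group
      have e' : (⟨u2 * u1 * u2⁻¹, conj_u2_mem hc (u1_mem_C hc)⟩ :
          Subgroup.centralizer ({x1} : Set G)) = ⟨u1, u1_mem_C hc⟩ := Subtype.ext e
      rw [e']
      exact hf.fu1 _)
  have e3 : (f.comp (conjU2 hc)) ⟨x1, x1_mem_C⟩ = (f ⟨x1, x1_mem_C⟩)⁻¹ := by
    show f ⟨u2 * x1 * u2⁻¹, _⟩ = _
    have e' : (⟨u2 * x1 * u2⁻¹, conj_u2_mem hc x1_mem_C⟩ :
        Subgroup.centralizer ({x1} : Set G)) = (⟨x1, x1_mem_C⟩)⁻¹ := Subtype.ext hc.a21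
    rw [e', map_inv]
  rw [e3] at e2
  have e4 : (f.comp (conjU2 hc)) ⟨g, hg⟩ = f ⟨u2 * g * u2⁻¹, conj_u2_mem hc hg⟩ := rfl
  rw [← e4, e2, e1, inv_pow]

theorem supp_sq (hc : Cfg3 T H x1 x2 x3 u1 u2 u3)
    (f : Subgroup.centralizer ({x1} : Set G) →* ℂˣ) (hf : Om3 x1 x2 x3 u1 f) {g : G}
    (hg : g ∈ Subgroup.centralizer ({x1} : Set G)) (hfg : f ⟨g, hg⟩ ≠ 1) :
    g ^ 2 ∈ T ∧ g ^ 2 ≠ 1 := by
  constructor
  · obtain ⟨t, ht, h | h⟩ := C_cases hc hg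
    · rw [h]
      exact T.pow_mem ht 2
    · rw [h]
      have e : (t * u1) ^ 2 = t * (u1 * t * u1⁻¹) := by
        rw [pow_two]
        have : u1 * u1 = 1 := by rw [← pow_two, hc.u1sq]
        calc t * u1 * (t * u1) = t * (u1 * t * u1⁻¹) * (u1 * u1) := by group
          _ = t * (u1 * t * u1⁻¹) := by rw [this, mul_one]
      rw [e]
      exact T.mul_mem ht (u1_conj_T hc ht)
  · intro h2
    apply hfg
    have h3 := f_pow3 hc f hf ⟨g, hg⟩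
    have h2' : f ⟨g, hg⟩ ^ 2 = 1 := by
      rw [← map_pow]
      have : (⟨g, hg⟩ : Subgroup.centralizer ({x1} : Set G)) ^ 2 = 1 := Subtype.ext h2
      rw [this, map_one]
    generalize f ⟨g, hg⟩ = z at h2' h3 ⊢
    have e : z = z ^ 3 * (z ^ 2)⁻¹ := by group
    rw [e, h2', h3]
    simp

end Cfsg.Agent.Lib.Helper52.T3Basics
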