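import Mathlib
import Cfsg.Agent.Lib.Helper32.T3Stmt
import Cfsg.Agent.Lib.Helper32.S9Exc
import Cfsg.Agent.Lib.Helper52.T3Basics

/-!
# S3701 piece EXC3 (from TI)
-/

set_option autoImplicit false

namespace Cfsg.Agent.Lib.Helper52.T3EXC3

open Cfsg
open Cfsg.Agent.Lib.Helper32.S9Stmt
open Cfsg.Agent.Lib.Helper32.T3Stmt
open Cfsg.Agent.Lib.Helper52.T3Basics
open Cfsg.Agent.Lib.CT.FrobRec

universe u

theorem sum_shift {G : Type u} [Group G] [Fintype G] (K : Subgroup G) [DecidablePred (· ∈ K)]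
    (w : G) : ∑ t : G, (if t * w ∈ K then (1 : ℂ) else 0) = (Nat.card K : ℂ) := by
  rw [← Cfsg.Agent.Lib.Helper32.S9Exc.sum_indicator K]
  exact Equiv.sum_comp (Equiv.mulRight w) (fun t => if t ∈ K then (1 : ℂ) else 0)

theorem main (hTI : Cfsg.Agent.Lib.Helper32.T3Stmt.TI.{u}) :
    Cfsg.Agent.Lib.Helper32.T3Stmt.EXC3.{u} := by
  intro G _ _ T H x1 x2 x3 u1 u2 u3 hc f hf g hg hfg
  classical
  set c : ℂ := ((f ⟨g, hg⟩ : ℂˣ) : ℂ) with hcdef
  have hc3 : c ^ 3 = 1 := by
    have := congrArg Units.val (f_pow3 hc f hf ⟨g, hg⟩)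
    simpa using this
  have hc1 : c ≠ 1 := fun h => hfg (Units.ext h)
  have hcc : c ^ 2 + c + 1 = 0 := by
    have h0 : (c - 1) * (c ^ 2 + c + 1) = 0 := by
      have : (c - 1) * (c ^ 2 + c + 1) = c ^ 3 - 1 := by ring
      rw [this, hc3, sub_self]
    rcases mul_eq_zero.1 h0 with h | h
    · exact absurd (sub_eq_zero.1 h) hc1
    · exact h
  have hcinv : (((f ⟨g, hg⟩)⁻¹ : ℂˣ) : ℂ) = c ^ 2 := by
    rw [Units.val_inv_eq_inv_val, ← hcdef]
    have hc0 : c ≠ 0 := by
      intro h0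
      rw [h0] at hc3
      norm_num at hc3
    rw [inv_eq_iff_eq_inv, eq_comm, inv_eq_iff_eq_inv]
    field_simp
    linear_combination hc3
  have hterm : ∀ t : G,
      extendByZero (Subgroup.centralizer ({x1} : Set G)) (phi x1 f) (t⁻¹ * g * t) =
        (1 - c) * (if t ∈ Subgroup.centralizer ({x1} : Set G) then 1 else 0) +
          (1 - c ^ 2) * (if t * u2 ∈ Subgroup.centralizer ({x1} : Set G) then 1 else 0) := by
    intro t
    by_cases ht : t ∈ Subgroup.centralizer ({x1} : Set G)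
    · have ht2 : t * u2 ∉ Subgroup.centralizer ({x1} : Set G) :=
        fun h => (mul_u2_mem hc h).2 ht
      rw [if_pos ht, if_neg ht2]
      have hmem : t⁻¹ * g * t ∈ Subgroup.centralizer ({x1} : Set G) :=
        Subgroup.mul_mem _ (Subgroup.mul_mem _ (Subgroup.inv_mem _ ht) hg) ht
      rw [extendByZero_apply_of_mem _ _ hmem]
      unfold phi
      have e : (⟨t⁻¹ * g * t, hmem⟩ : Subgroup.centralizer ({x1} : Set G)) =
          (⟨t, ht⟩ : Subgroup.centralizer ({x1} : Set G))⁻¹ * ⟨g, hg⟩ * ⟨t, ht⟩ :=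
        Subtype.ext (by simp)
      rw [e, map_mul, map_mul, map_inv, mul_comm, ← mul_assoc, mul_inv_cancel, one_mul]
      simp [hcdef]
    · rw [if_neg ht]
      by_cases ht2 : t * u2 ∈ Subgroup.centralizer ({x1} : Set G)
      · rw [if_pos ht2]
        obtain ⟨h₀, hh₀⟩ : ∃ h₀, h₀ = t * u2 := ⟨_, rfl⟩
        rw [← hh₀] at ht2
        have hg1 : h₀⁻¹ * g * h₀ ∈ Subgroup.centralizer ({x1} : Set G) :=
          Subgroup.mul_mem _ (Subgroup.mul_mem _ (Subgroup.inv_mem _ ht2) hg) ht2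
        have hfg1 : f ⟨h₀⁻¹ * g * h₀, hg1⟩ = f ⟨g, hg⟩ := by
          have e : (⟨h₀⁻¹ * g * h₀, hg1⟩ : Subgroup.centralizer ({x1} : Set G)) =
              (⟨h₀, ht2⟩ : Subgroup.centralizer ({x1} : Set G))⁻¹ * ⟨g, hg⟩ * ⟨h₀, ht2⟩ :=
            Subtype.ext (by simp)
          rw [e, map_mul, map_mul, map_inv, mul_comm, ← mul_assoc, mul_inv_cancel, one_mul]
        have e2 : t⁻¹ * g * t = u2 * (h₀⁻¹ * g * h₀) * u2⁻¹ := by
          rw [hh₀]
          group
        rw [e2, extendByZero_apply_of_mem _ _ (conj_u2_mem hc hg1)]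
        unfold phi
        rw [conj_u2 hc f hf _ hg1, hfg1, hcinv]
        ring
      · rw [if_neg ht2]
        simp only [mul_zero, add_zero]
        by_contra hne
        obtain ⟨hv, hfv⟩ := Cfsg.Agent.Lib.Helper32.S9Exc.ext_ne_zero f _ hne
        obtain ⟨hT1, hne1⟩ := supp_sq hc f hf hg hfg
        obtain ⟨hT2, -⟩ := supp_sq hc f hf hv hfv
        have htH : t ∈ H := by
          have : t⁻¹ ∈ H := by
            apply hTI hc t⁻¹ (g ^ 2) hT1 hne1
            have e := conj_pow (a := t⁻¹) (b := g) (i := 2)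
            rw [← e]
            simpa using hT2
          simpa using H.inv_mem this
        rcases H_cases hc htH with h | h
        · exact ht h
        · exact ht2 h
  unfold exc
  rw [indFun_apply]
  simp_rw [hterm]
  rw [Finset.sum_add_distrib, ← Finset.mul_sum, ← Finset.mul_sum,
    Cfsg.Agent.Lib.Helper32.S9Exc.sum_indicator, sum_shift]
  have hC0 : (Nat.card (Subgroup.centralizer ({x1} : Set G)) : ℂ) ≠ 0 := by
    exact_mod_cast (Nat.card_pos (α := Subgroup.centralizer ({x1} : Set G))).ne'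
  field_simp
  linear_combination (-1 : ℂ) * hcc

end Cfsg.Agent.Lib.Helper52.T3EXC3
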