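import Mathlib
import Cfsg.Agent.Lib.Helper32.T3Stmt
import Cfsg.Agent.Lib.Helper32.S9Exc
import Cfsg.Agent.Lib.Helper52.T3Basics

/-!
# S3701 piece EXCINV
-/

set_option autoImplicit false

namespace Cfsg.Agent.Lib.Helper52.T3EXCINV

open Cfsg
open Cfsg.Agent.Lib.Helper32.S9Stmt
open Cfsg.Agent.Lib.Helper32.T3Stmt
open Cfsg.Agent.Lib.Helper52.T3Basics

universe u

theorem main : Cfsg.Agent.Lib.Helper32.T3Stmt.EXCINV.{u} := by
  intro G _ _ T H x1 x2 x3 u1 u2 u3 hc f hf u hu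
  by_contra h
  obtain ⟨t, ht, hne⟩ := Cfsg.Agent.Lib.Helper32.S9Exc.exc_support f u h
  apply hne
  have h2 : f ⟨t⁻¹ * u * t, ht⟩ ^ 2 = 1 := by
    rw [← map_pow]
    have : (⟨t⁻¹ * u * t, ht⟩ : Subgroup.centralizer ({x1} : Set G)) ^ 2 = 1 := by
      apply Subtype.ext
      show (t⁻¹ * u * t) ^ 2 = 1
      have := conj_pow (a := t⁻¹) (b := u) (i := 2)
      rw [inv_inv] at this
      rw [this, hu]
      group
    rw [this, map_one]
  have h3 := f_pow3 hc f hf ⟨t⁻¹ * u * t, ht⟩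
  generalize f ⟨t⁻¹ * u * t, ht⟩ = z at h2 h3 ⊢
  have e : z = z ^ 3 * (z ^ 2)⁻¹ := by group
  rw [e, h2, h3]
  simp

end Cfsg.Agent.Lib.Helper52.T3EXCINV
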