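import Mathlib
import Cfsg.Agent.Lib.Helper32.T3Stmt
import Cfsg.Agent.Lib.Helper32.S9Ker
import Cfsg.Agent.Lib.Helper3.Irr

/-!
# S3701 piece KB (from EXCINV, EXC3, PRODVAN)
-/

set_option autoImplicit false

namespace Cfsg.Agent.Lib.Helper52.T3KB

open Cfsg
open Cfsg.Agent.Lib.Helper32.S9Stmt
open Cfsg.Agent.Lib.Helper32.T3Stmt
open Cfsg.Agent.Lib.Helper3

universe u

theorem main (hEI : Cfsg.Agent.Lib.Helper32.T3Stmt.EXCINV.{u})
    (hE3 : Cfsg.Agent.Lib.Helper32.T3Stmt.EXC3.{u})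
    (hPV : Cfsg.Agent.Lib.Helper32.T3Stmt.PRODVAN.{u}) :
    Cfsg.Agent.Lib.Helper32.T3Stmt.KB.{u} := by
  intro G _ _ T H x1 x2 x3 u1 u2 u3 hc f hf h1 h2 Y' Y'' hY' hY'' hexc hdeg
  obtain ⟨d, hd0, hd⟩ := Irr.IsIrrCharacter.exists_apply_one_pos hY''
  have hdC : (d : ℂ) ≠ 0 := by exact_mod_cast hd0.ne'
  have hd1C : (d : ℂ) + 1 ≠ 0 := by exact_mod_cast (Nat.succ_ne_zero d)
  have hG0 : (Nat.card G : ℂ) ≠ 0 := by
    exact_mod_cast (Nat.card_pos (α := G)).ne'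
  have hb : Y' u1 = 1 + Y'' u1 := by
    have := hexc u1
    rw [hEI hc f hf u1 hc.u1sq] at this
    linear_combination this
  have hsum := Cfsg.Agent.Lib.Helper32.S9Ker.schur3 (exc x1 f) Y' Y'' u1 hY' hY'' hexc
  have hzero : ∑ h : G, exc x1 f (u1 * (h * u1 * h⁻¹)) = 0 :=
    Finset.sum_eq_zero fun h _ => hPV hc f hf h1 h2 h
  rw [hzero, hb, hdeg, hd] at hsum
  have hv : ((d : ℂ) - Y'' u1) ^ 2 = 0 := by
    have h0 : (1 - (1 + Y'' u1) * (1 + Y'' u1) / ((d : ℂ) + 1) + Y'' u1 * Y'' u1 / (d : ℂ)) = 0 := by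
      rcases mul_eq_zero.1 hsum.symm with h | h
      · exact absurd h hG0
      · exact h
    field_simp at h0
    linear_combination h0
  have hv' : Y'' u1 = d := by
    have := pow_eq_zero_iff (n := 2) (by norm_num) |>.1 hv
    linear_combination -this
  refine ⟨?_, ?_⟩
  · rw [hb, hv', hdeg, hd]; ring
  · intro hx
    have hxc : x1 ∈ Subgroup.centralizer ({x1} : Set G) := by
      rw [Subgroup.mem_centralizer_iff]
      intro z hz
      rw [Set.mem_singleton_iff.1 hz]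
    have h3 := hexc x1
    rw [hE3 hc f hf x1 hxc (hf.fx1 hxc), hx, hdeg, hd] at h3
    have hYx : Y'' x1 = (d : ℂ) + 3 := by linear_combination -h3
    have hle := Irr.IsCharacter.norm_le (Irr.IsIrrCharacter.isCharacter hY'') x1
    rw [hYx, hd] at hle
    have e1 : ‖((d : ℂ) + 3)‖ = (d : ℝ) + 3 := by
      have : ((d : ℂ) + 3) = (((d : ℝ) + 3 : ℝ) : ℂ) := by push_cast; ring
      rw [this, Complex.norm_real, Real.norm_of_nonneg (by positivity)]
    rw [e1] at hle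
    simp at hle
    linarith

end Cfsg.Agent.Lib.Helper52.T3KB
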