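import Mathlib

set_option autoImplicit false
set_option linter.unusedSectionVars false
set_option linter.unusedVariables false

/-!
Abelian Sylow `p`-subgroups: the norm map `P → P ∩ Z(N(P))` (product of the conjugates
over `N(P)/P`) and the transfer of elements of `P` central in `N(P)`.
-/

namespace Cfsg.Agent.Lib.Helper52.AbSylow

open scoped IsMulCommutative

variable {G : Type*} [Group G] [Finite G] {p : ℕ} [Fact p.Prime]

section

variable (P : Sylow p G)

/-- Conjugation by an element of `N(P)` as an endomorphism of `P`. -/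
def conjP (n : Subgroup.normalizer (P : Set G)) : ↥(P : Subgroup G) →* ↥(P : Subgroup G) where
  toFun x := ⟨(n : G) * x * (n : G)⁻¹, (Subgroup.mem_normalizer_iff.1 n.2 x).1 x.2⟩
  map_one' := Subtype.ext (by simp)
  map_mul' x y := Subtype.ext (by simp [mul_assoc])

theorem conjP_coe (n : Subgroup.normalizer (P : Set G)) (x : ↥(P : Subgroup G)) :
    ((conjP P n x : ↥(P : Subgroup G)) : G) = (n : G) * x * (n : G)⁻¹ := rfl

theorem conjP_mul (n m : Subgroup.normalizer (P : Set G)) (x : ↥(P : Subgroup G)) :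
    conjP P (n * m) x = conjP P n (conjP P m x) := by
  apply Subtype.ext
  simp only [conjP_coe, Subgroup.coe_mul]
  group

variable [hP : IsMulCommutative (P : Subgroup G)]

/-- The conjugates of `x` indexed by `N(P)/P`. -/
def conjQ (x : ↥(P : Subgroup G)) :
    (Subgroup.normalizer (P : Set G)) ⧸
      ((P : Subgroup G).subgroupOf (Subgroup.normalizer (P : Set G))) → ↥(P : Subgroup G) :=
  Quotient.lift (fun n => conjP P n x) (by
    intro n n' h
    have h' : n⁻¹ * n' ∈ (P : Subgroup G).subgroupOf (Subgroup.normalizer (P : Set G)) :=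
      QuotientGroup.leftRel_apply.1 h
    rw [Subgroup.mem_subgroupOf] at h'
    have hc : ((n⁻¹ * n' : Subgroup.normalizer (P : Set G)) : G) * (x : G) =
        (x : G) * ((n⁻¹ * n' : Subgroup.normalizer (P : Set G)) : G) :=
      congrArg Subtype.val (mul_comm (⟨_, h'⟩ : ↥(P : Subgroup G)) x)
    have hc' : (n : G)⁻¹ * (n' : G) * (x : G) = (x : G) * ((n : G)⁻¹ * (n' : G)) := by
      simpa using hc
    apply Subtype.ext
    show (n : G) * x * (n : G)⁻¹ = (n' : G) * x * (n' : G)⁻¹
    calc (n : G) * x * (n : G)⁻¹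
        = (n : G) * ((x : G) * ((n : G)⁻¹ * (n' : G))) * (n' : G)⁻¹ := by group
      _ = (n : G) * ((n : G)⁻¹ * (n' : G) * (x : G)) * (n' : G)⁻¹ := by rw [hc']
      _ = (n' : G) * x * (n' : G)⁻¹ := by group)

theorem conjQ_mk (x : ↥(P : Subgroup G)) (n : Subgroup.normalizer (P : Set G)) :
    conjQ P x (QuotientGroup.mk n) = conjP P n x := rfl

theorem conjQ_mul (x y : ↥(P : Subgroup G))
    (q : (Subgroup.normalizer (P : Set G)) ⧸
      ((P : Subgroup G).subgroupOf (Subgroup.normalizer (P : Set G)))) :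
    conjQ P (x * y) q = conjQ P x q * conjQ P y q := by
  obtain ⟨n, rfl⟩ := QuotientGroup.mk_surjective q
  rw [conjQ_mk, conjQ_mk, conjQ_mk, map_mul]

theorem conjQ_one
    (q : (Subgroup.normalizer (P : Set G)) ⧸
      ((P : Subgroup G).subgroupOf (Subgroup.normalizer (P : Set G)))) :
    conjQ P 1 q = 1 := by
  obtain ⟨n, rfl⟩ := QuotientGroup.mk_surjective q
  rw [conjQ_mk, map_one]

theorem conjP_conjQ (n : Subgroup.normalizer (P : Set G)) (x : ↥(P : Subgroup G))
    (q : (Subgroup.normalizer (P : Set G)) ⧸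
      ((P : Subgroup G).subgroupOf (Subgroup.normalizer (P : Set G)))) :
    conjP P n (conjQ P x q) = conjQ P x (n • q) := by
  obtain ⟨m, rfl⟩ := QuotientGroup.mk_surjective q
  rw [conjQ_mk, MulAction.Quotient.smul_mk, smul_eq_mul, conjQ_mk, conjP_mul]

/-- The norm map `P → P`: the product of the conjugates over `N(P)/P`. -/
noncomputable def nu : ↥(P : Subgroup G) →* ↥(P : Subgroup G) :=
  letI := Fintype.ofFinite ((Subgroup.normalizer (P : Set G)) ⧸
      ((P : Subgroup G).subgroupOf (Subgroup.normalizer (P : Set G))))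
  { toFun := fun x => ∏ q, conjQ P x q
    map_one' := by
      apply Finset.prod_eq_one
      intro q _
      exact conjQ_one P q
    map_mul' := by
      intro x y
      rw [← Finset.prod_mul_distrib]
      apply Finset.prod_congr rfl
      intro q _
      exact conjQ_mul P x y q }

theorem nu_apply [Fintype ((Subgroup.normalizer (P : Set G)) ⧸
      ((P : Subgroup G).subgroupOf (Subgroup.normalizer (P : Set G))))]
    (x : ↥(P : Subgroup G)) : nu P x = ∏ q, conjQ P x q := by
  unfold nu
  simp only [MonoidHom.coe_mk, OneHom.coe_mk]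
  congr
  apply Subsingleton.elim

/-- The norm is fixed by `N(P)`. -/
theorem nu_fixed (n : Subgroup.normalizer (P : Set G)) (x : ↥(P : Subgroup G)) :
    conjP P n (nu P x) = nu P x := by
  classical
  let _ : Fintype ((Subgroup.normalizer (P : Set G)) ⧸
      ((P : Subgroup G).subgroupOf (Subgroup.normalizer (P : Set G)))) := Fintype.ofFinite ((Subgroup.normalizer (P : Set G)) ⧸
      ((P : Subgroup G).subgroupOf (Subgroup.normalizer (P : Set G))))
  rw [nu_apply, map_prod]
  simp_rw [conjP_conjQ]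
  exact Equiv.prod_comp (MulAction.toPerm n) (fun q => conjQ P x q)

/-- On elements fixed by `N(P)` the norm is a power map. -/
theorem nu_of_fixed (z : ↥(P : Subgroup G))
    (hz : ∀ n : Subgroup.normalizer (P : Set G), conjP P n z = z) :
    nu P z = z ^ ((P : Subgroup G).relIndex (Subgroup.normalizer (P : Set G))) := by
  classical
  let _ : Fintype ((Subgroup.normalizer (P : Set G)) ⧸
      ((P : Subgroup G).subgroupOf (Subgroup.normalizer (P : Set G)))) := Fintype.ofFinite ((Subgroup.normalizer (P : Set G)) ⧸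
      ((P : Subgroup G).subgroupOf (Subgroup.normalizer (P : Set G))))
  rw [nu_apply]
  have : ∀ q, conjQ P z q = z := by
    intro q
    obtain ⟨n, rfl⟩ := QuotientGroup.mk_surjective q
    rw [conjQ_mk, hz]
  simp_rw [this]
  rw [Finset.prod_const, Finset.card_univ, Subgroup.relIndex, Subgroup.index,
    Nat.card_eq_fintype_card]

/-- Parity: if all conjugates of `x` lie in `L` but not in `K`, where `K` has "index 2" in
`L`, and `|N(P) : P|` is odd, then the norm of `x` lies in `L` and not in `K`. -/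
theorem nu_parity (x : ↥(P : Subgroup G)) (K L : Subgroup ↥(P : Subgroup G))
    (hodd : Odd ((P : Subgroup G).relIndex (Subgroup.normalizer (P : Set G))))
    (hmem : ∀ n : Subgroup.normalizer (P : Set G), conjP P n x ∈ L ∧ conjP P n x ∉ K)
    (hK : ∀ a ∈ L, ∀ b ∈ L, a ∉ K → b ∉ K → a * b ∈ K) :
    nu P x ∈ L ∧ nu P x ∉ K := by
  classical
  let _ : Fintype ((Subgroup.normalizer (P : Set G)) ⧸
      ((P : Subgroup G).subgroupOf (Subgroup.normalizer (P : Set G)))) := Fintype.ofFinite ((Subgroup.normalizer (P : Set G)) ⧸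
      ((P : Subgroup G).subgroupOf (Subgroup.normalizer (P : Set G))))
  rw [nu_apply]
  have hq : ∀ q, conjQ P x q ∈ L ∧ conjQ P x q ∉ K := by
    intro q
    obtain ⟨n, rfl⟩ := QuotientGroup.mk_surjective q
    rw [conjQ_mk]; exact hmem n
  have key : ∀ s : Finset ((Subgroup.normalizer (P : Set G)) ⧸
      ((P : Subgroup G).subgroupOf (Subgroup.normalizer (P : Set G)))),
      (∏ q ∈ s, conjQ P x q) ∈ L ∧ ((∏ q ∈ s, conjQ P x q) ∈ K ↔ Even s.card) := by
    intro s
    induction s using Finset.induction_on with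
    | empty => simp [one_mem]
    | insert a s ha ih =>
      rw [Finset.prod_insert ha, Finset.card_insert_of_notMem ha]
      obtain ⟨ih1, ih2⟩ := ih
      obtain ⟨h1, h2⟩ := hq a
      refine ⟨mul_mem h1 ih1, ?_⟩
      rw [Nat.even_add_one, ← ih2]
      constructor
      · intro h3 h4
        apply h2
        have := K.mul_mem h3 (K.inv_mem h4)
        simpa using this
      · intro h3
        exact hK _ h1 _ ih1 h2 h3
  obtain ⟨k1, k2⟩ := key Finset.univ
  refine ⟨k1, ?_⟩
  rw [k2, Finset.card_univ, ← Nat.card_eq_fintype_card]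
  rw [Subgroup.relIndex, Subgroup.index] at hodd
  exact Nat.not_even_iff_odd.2 hodd

/-- The transfer `G → P` maps an element of `P` central in `N(P)` to its `|G : P|`-th
power. -/
theorem transfer_central (z : G) (hz : z ∈ (P : Subgroup G))
    (hcen : ∀ n ∈ Subgroup.normalizer (P : Set G), n * z * n⁻¹ = z) :
    ((MonoidHom.transfer (MonoidHom.id ↥(P : Subgroup G)) z : ↥(P : Subgroup G)) : G) =
      z ^ (P : Subgroup G).index := by
  have key : ∀ (k : ℕ) (g₀ : G), g₀⁻¹ * z ^ k * g₀ ∈ (P : Subgroup G) →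
      g₀⁻¹ * z ^ k * g₀ = z ^ k := by
    intro k g₀ h
    obtain ⟨n, hn, h'⟩ := P.conj_eq_normalizer_conj_of_mem (z ^ k) g₀ (pow_mem hz k) h
    rw [h']
    have h1 : n⁻¹ * z * n⁻¹⁻¹ = z := hcen n⁻¹ (inv_mem hn)
    have h2 : n⁻¹ * z ^ k * n = (n⁻¹ * z * n⁻¹⁻¹) ^ k := by
      rw [inv_inv]
      have := map_pow (MulAut.conj n⁻¹) z k
      simp only [MulAut.conj_apply, inv_inv] at this
      exact this
    rw [h2, h1]
  rw [MonoidHom.transfer_eq_pow _ z key]
  rfl

end

/-- A nontrivial finite 2-group has a subgroup of index 2. -/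
theorem exists_index_two_of_two_group (Q : Type*) [Group Q] [Finite Q] (hQ : IsPGroup 2 Q)
    (hnt : Nontrivial Q) : ∃ K : Subgroup Q, K.index = 2 := by
  obtain ⟨k, hk⟩ := IsPGroup.iff_card.1 hQ
  have hk1 : 1 ≤ k := by
    by_contra h
    have : k = 0 := by omega
    rw [this, pow_zero] at hk
    have := Finite.one_lt_card (α := Q)
    omega
  obtain ⟨K, hK⟩ := Sylow.exists_subgroup_card_pow_prime 2
    (show 2 ^ (k - 1) ∣ Nat.card Q from by rw [hk]; exact pow_dvd_pow 2 (by omega))
  refine ⟨K, ?_⟩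
  have h1 := K.index_mul_card
  rw [hK, hk] at h1
  have h2 : 2 ^ k = 2 * 2 ^ (k - 1) := by
    rw [← pow_succ']; congr 1; omega
  rw [h2] at h1
  exact Nat.eq_of_mul_eq_mul_right (by positivity) h1

/-- A group with a homomorphism to a 2-group that is nontrivial has a subgroup of
index 2. -/
theorem exists_index_two_of_hom {A : Type*} [Group A] [Finite A] (hA : IsPGroup 2 A)
    (ψ : G →* A) (g : G) (hg : ψ g ≠ 1) : ∃ H : Subgroup G, H.index = 2 := by
  have hnt : Nontrivial ψ.range := by
    refine ⟨⟨⟨ψ g, g, rfl⟩, 1, ?_⟩⟩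
    intro h
    exact hg (congrArg Subtype.val h)
  obtain ⟨K, hK⟩ := exists_index_two_of_two_group ψ.range (hA.to_subgroup ψ.range) hnt
  refine ⟨K.comap ψ.rangeRestrict, ?_⟩
  rw [Subgroup.index_comap_of_surjective _ ψ.rangeRestrict_surjective, hK]

end Cfsg.Agent.Lib.Helper52.AbSylow
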