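import Mathlib
import Cfsg.Agent.Lib.Helper80.S4705Stmt
import Cfsg.Agent.Lib.CT.Ops
import Cfsg.Agent.S4468
import Cfsg.Agent.Lib.Helper52.FTPERFNN

/-!
# S4705 piece PERFPERF: the normal closure of `P` is perfect
-/

set_option autoImplicit false

namespace Cfsg.Agent.Lib.Helper52.FTPERFPERF

open Cfsg Cfsg.Agent.Lib.Helper80.S4705Stmt

universe u

section

variable {G : Type u} [Group G]

/-- the abelianization of the normal closure of a subgroup of exponent `p` has exponent `p` -/
theorem ab_pow_eq_one (H : Subgroup G) (p : ℕ) (hH : ∀ x ∈ H, x ^ p = 1) :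
    ∀ a : Abelianization ↥(Subgroup.normalClosure (H : Set G)), a ^ p = 1 := by
  intro a
  obtain ⟨⟨l, hl⟩, rfl⟩ := QuotientGroup.mk_surjective a
  have key : ∀ (x : G) (hx : x ∈ Subgroup.normalClosure (H : Set G)),
      (Abelianization.of (⟨x, hx⟩ : ↥(Subgroup.normalClosure (H : Set G)))) ^ p = 1 := by
    intro x hx
    refine Subgroup.closure_induction (p := fun x hx =>
      (Abelianization.of (⟨x, hx⟩ : ↥(Subgroup.normalClosure (H : Set G)))) ^ p = 1)
      ?_ ?_ ?_ ?_ hx
    · intro x hx
      obtain ⟨y, hy, hconj⟩ := Group.mem_conjugatesOfSet_iff.mp hx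
      obtain ⟨c, rfl⟩ := isConj_iff.mp hconj
      rw [← map_pow]
      have h1 : (⟨c * y * c⁻¹, Subgroup.subset_closure hx⟩ :
          ↥(Subgroup.normalClosure (H : Set G))) ^ p = 1 := by
        apply Subtype.ext
        rw [Subgroup.coe_pow, Subgroup.coe_one]
        change (c * y * c⁻¹) ^ p = 1
        rw [conj_pow, hH y hy]
        group
      rw [h1, map_one]
    · change (Abelianization.of (1 : ↥(Subgroup.normalClosure (H : Set G)))) ^ p = 1
      rw [map_one, one_pow]
    · intro x y hx hy hx' hy'
      change (Abelianization.of ((⟨x, hx⟩ : ↥(Subgroup.normalClosure (H : Set G))) * ⟨y, hy⟩)) ^ p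
        = 1
      rw [map_mul, mul_pow, hx', hy', one_mul]
    · intro x hx hx'
      change (Abelianization.of ((⟨x, hx⟩ : ↥(Subgroup.normalClosure (H : Set G)))⁻¹)) ^ p = 1
      rw [map_inv, inv_pow, hx', inv_one]
  exact key l hl

end

theorem main : Cfsg.Agent.Lib.Helper80.S4705Stmt.PerfPerf.{u} := by
  intro G _ _ p _ P ζ hHyp
  obtain ⟨h5, hPcard, hPnn, hirr, hfaith, hdeg⟩ := hHyp
  have hp : p.Prime := Fact.out
  by_contra hne
  have hexp : ∀ x ∈ (P : Subgroup G), x ^ p = 1 := by
    intro x hx
    have := Subgroup.orderOf_dvd_natCard (P : Subgroup G) hx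
    rw [hPcard] at this
    exact orderOf_dvd_iff_pow_eq_one.mp this
  have hab := ab_pow_eq_one (P : Subgroup G) p hexp
  have hpg : IsPGroup p (Abelianization ↥(Subgroup.normalClosure ((P : Subgroup G) : Set G))) := by
    intro a
    exact ⟨1, by rw [pow_one]; exact hab a⟩
  obtain ⟨k, hk⟩ := IsPGroup.iff_card.mp hpg
  have hvp : (Nat.card G).factorization p = 1 := by
    have h1 := P.card_eq_multiplicity
    rw [hPcard] at h1
    have h2 : p ^ 1 = p ^ (Nat.card G).factorization p := by
      rw [pow_one]
      exact h1
    exact (Nat.pow_right_injective hp.two_le h2).symm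
  have hidx : (commutator ↥(Subgroup.normalClosure ((P : Subgroup G) : Set G))).index = p ^ k := by
    rw [Subgroup.index_eq_card]
    exact hk
  have hLG : Nat.card ↥(Subgroup.normalClosure ((P : Subgroup G) : Set G)) ∣ Nat.card G :=
    Subgroup.card_subgroup_dvd_card _
  have hk1 : k ≤ 1 := by
    have h1 : p ^ k ∣ Nat.card G := by
      rw [← hidx]
      exact (Subgroup.index_dvd_card _).trans hLG
    rw [← hvp]
    exact (hp.pow_dvd_iff_le_factorization Nat.card_pos.ne').mp h1
  interval_cases k
  · apply hne
    rw [pow_zero] at hidx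
    exact Subgroup.index_eq_one.mp hidx
  · rw [pow_one] at hidx
    have hcop : (Nat.card ↥(commutator ↥(Subgroup.normalClosure ((P : Subgroup G) : Set G)))).Coprime
        p := by
      rw [Nat.coprime_comm, Nat.Prime.coprime_iff_not_dvd hp]
      intro hdiv
      have h1 : p ^ 2 ∣ Nat.card G := by
        have h2 := Subgroup.card_mul_index
          (commutator ↥(Subgroup.normalClosure ((P : Subgroup G) : Set G)))
        rw [hidx] at h2
        have h3 : p ^ 2 ∣ Nat.card ↥(Subgroup.normalClosure ((P : Subgroup G) : Set G)) := by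
          rw [← h2, sq]
          exact Nat.mul_dvd_mul hdiv (dvd_refl p)
        exact h3.trans hLG
      have := (hp.pow_dvd_iff_le_factorization Nat.card_pos.ne').mp h1
      omega
    have hsolv : IsPSolvable p ↥(Subgroup.normalClosure ((P : Subgroup G) : Set G)) := by
      refine ⟨2, ![⊥, commutator ↥(Subgroup.normalClosure ((P : Subgroup G) : Set G)), ⊤],
        rfl, rfl, ?_, ?_, ?_⟩
      · rw [Fin.monotone_iff_le_succ]
        intro i
        fin_cases i
        · exact bot_le
        · exact le_top
      · intro i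
        fin_cases i
        · exact Subgroup.normal_bot
        · change (commutator ↥(Subgroup.normalClosure ((P : Subgroup G) : Set G))).Normal
          infer_instance
        · exact Subgroup.normal_top
      · intro i
        fin_cases i
        · right
          change ((⊥ : Subgroup ↥(Subgroup.normalClosure ((P : Subgroup G) : Set G))).relIndex
            (commutator ↥(Subgroup.normalClosure ((P : Subgroup G) : Set G)))).Coprime p
          rw [Subgroup.relIndex_bot_left]
          exact hcop
        · left
          refine ⟨1, ?_⟩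
          change (commutator ↥(Subgroup.normalClosure ((P : Subgroup G) : Set G))).relIndex ⊤
            = p ^ 1
          rw [Subgroup.relIndex_top_right, hidx, pow_one]
    have hχ : IsCharacter ↥(Subgroup.normalClosure ((P : Subgroup G) : Set G))
        (fun l : ↥(Subgroup.normalClosure ((P : Subgroup G) : Set G)) => ζ (l : G)) :=
      Cfsg.Agent.Lib.CT.Ops.isCharacter_restrict _
        (Cfsg.Agent.Lib.CT.Ops.IsIrrCharacter.isCharacter hirr)
    have hfaith' : ∀ l : ↥(Subgroup.normalClosure ((P : Subgroup G) : Set G)),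
        ζ (l : G) = ζ ((1 : ↥(Subgroup.normalClosure ((P : Subgroup G) : Set G))) : G) → l = 1 :=
      fun l h => Subtype.ext (hfaith l h)
    have hdeg' : charDegree (fun l : ↥(Subgroup.normalClosure ((P : Subgroup G) : Set G)) =>
        ζ (l : G)) = p - 2 := hdeg
    have hres := Cfsg.Agent.S4468.result
      (fun l : ↥(Subgroup.normalClosure ((P : Subgroup G) : Set G)) => ζ (l : G)) hχ hfaith'
      (p - 2) hdeg' p hp hsolv (by omega) (P.subtype Subgroup.le_normalClosure)
      (Cfsg.Agent.Lib.Helper52.FTPERFNN.main G p P hPnn)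
    have := hres.1
    omega

end Cfsg.Agent.Lib.Helper52.FTPERFPERF
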