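import Mathlib
import Cfsg.Agent.Lib.Helper40.GFStmt
import Cfsg.Agent.Lib.Helper40.KStr

/-!
# S5886 piece DUALREP: every `F`-functional on `L ^ k` is `τ ∘ φ`
-/

set_option autoImplicit false

namespace Cfsg.Agent.Lib.Helper52.GFDUALREP

open Cfsg.Agent.Lib.Helper40.GFStmt

universe u

theorem main : DualRep.{u} := by
  intro F L _ _ _ _ k τ hτ χ
  classical
  have h : ∀ j : Fin k, ∃ c : L, ∀ a : L, χ (Pi.single j a) = τ (a * c) := by
    intro j
    exact Cfsg.Agent.Lib.Helper40.KStr.exists_rep τ hτ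
      (χ ∘ₗ (LinearMap.single F (fun _ : Fin k => L) j))
  choose c hc using h
  refine ⟨∑ j, c j • LinearMap.proj j, fun x => ?_⟩
  have hx : x = ∑ j, Pi.single j (x j) := (Finset.univ_sum_single x).symm
  conv_lhs => rw [hx]
  rw [map_sum]
  simp only [hc]
  rw [← map_sum]
  congr 1
  simp [mul_comm]

end Cfsg.Agent.Lib.Helper52.GFDUALREP
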