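import Mathlib

/-!
A finite group `H` with an endomorphism `σ` whose fixed points are `1` and `j`: the elements
`g⁻¹ * σ g` fill at least half of `H`; consequences for elements inverted by `σ` together with
all their conjugates, and a `σ`-invariant subgroup of index two containing all `g⁻¹ * σ g`.
-/

set_option autoImplicit false

namespace Cfsg.Agent.Lib.Helper52.Idx2Abs

variable {H : Type*} [Group H]

theorem card_le_two_mul [Finite H] (σ : H →* H) (j : H)
    (hfix : ∀ h, σ h = h → h = 1 ∨ h = j) (C : Subgroup H) (hC : ∀ g, g⁻¹ * σ g ∈ C) :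
    Nat.card H ≤ 2 * Nat.card C := by
  classical
  have : Fintype H := Fintype.ofFinite H
  have : Fintype C := Fintype.ofFinite C
  let f : H → C := fun g => ⟨g⁻¹ * σ g, hC g⟩
  have h1 := Finset.card_le_mul_card_image (f := f) (Finset.univ : Finset H) 2 (by
    intro a ha
    obtain ⟨g, -, rfl⟩ := Finset.mem_image.1 ha
    have hsub : (Finset.univ.filter fun x => f x = f g) ⊆ {g, j * g} := by
      intro x hx
      have hx' : f x = f g := (Finset.mem_filter.1 hx).2
      have e : x⁻¹ * σ x = g⁻¹ * σ g := congrArg Subtype.val hx'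
      have e2 : σ (x * g⁻¹) = x * g⁻¹ := by
        rw [map_mul, map_inv]
        have : σ x = x * (g⁻¹ * σ g) := by rw [← e]; group
        rw [this]; group
      simp only [Finset.mem_insert, Finset.mem_singleton]
      rcases hfix _ e2 with h | h
      · left
        exact mul_inv_eq_one.1 h
      · right
        rw [← h]; group
    exact (Finset.card_le_card hsub).trans Finset.card_le_two)
  rw [Finset.card_univ] at h1
  have h2 : (Finset.univ.image f).card ≤ Fintype.card C := Finset.card_le_univ _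
  rw [Nat.card_eq_fintype_card, Nat.card_eq_fintype_card]
  exact h1.trans (Nat.mul_le_mul_left 2 h2)

theorem eq_top_of_no_index_two [Finite H] (σ : H →* H) (j : H)
    (hfix : ∀ h, σ h = h → h = 1 ∨ h = j) (hno : ∀ K : Subgroup H, K.index ≠ 2)
    (C : Subgroup H) (hC : ∀ g, g⁻¹ * σ g ∈ C) : C = ⊤ := by
  have h1 := card_le_two_mul σ j hfix C hC
  have h2 := C.card_mul_index
  have h3 : C.index ≠ 0 := Subgroup.index_ne_zero_of_finite
  have h4 : 0 < Nat.card C := Nat.card_pos
  have h5 : C.index ≤ 2 := by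
    by_contra hcon
    push Not at hcon
    have : Nat.card C * 3 ≤ Nat.card C * C.index := Nat.mul_le_mul_left _ hcon
    omega
  have h6 := hno C
  have h7 : C.index = 1 := by omega
  exact Subgroup.index_eq_one.1 h7

/-- If `σ` inverts every conjugate of `d` and `H` has no subgroup of index two, then `d` is
central. -/
theorem central_of_inverted [Finite H] (σ : H →* H) (j : H)
    (hfix : ∀ h, σ h = h → h = 1 ∨ h = j) (hno : ∀ K : Subgroup H, K.index ≠ 2) (d : H)
    (hd : ∀ g : H, σ (g * d * g⁻¹) = g * d⁻¹ * g⁻¹) : ∀ g : H, g * d = d * g := by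
  have hσd : σ d = d⁻¹ := by
    have := hd 1
    simpa using this
  have hC : ∀ g, g⁻¹ * σ g ∈ Subgroup.centralizer ({d} : Set H) := by
    intro g
    rw [Subgroup.mem_centralizer_iff]
    intro x hx
    rw [Set.mem_singleton_iff] at hx
    rw [hx]
    have h1 : σ g * d⁻¹ * (σ g)⁻¹ = g * d⁻¹ * g⁻¹ := by
      rw [← hd g, map_mul, map_mul, map_inv, hσd]
    have hw : (g⁻¹ * σ g) * d⁻¹ * (g⁻¹ * σ g)⁻¹ = d⁻¹ := by
      calc (g⁻¹ * σ g) * d⁻¹ * (g⁻¹ * σ g)⁻¹ = g⁻¹ * (σ g * d⁻¹ * (σ g)⁻¹) * g := by group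
        _ = d⁻¹ := by rw [h1]; group
    calc d * (g⁻¹ * σ g) = d * ((g⁻¹ * σ g) * d⁻¹ * (g⁻¹ * σ g)⁻¹) * ((g⁻¹ * σ g) * d) := by group
      _ = g⁻¹ * σ g * d := by rw [hw]; group
  have htop := eq_top_of_no_index_two σ j hfix hno _ hC
  intro g
  have hg : g ∈ Subgroup.centralizer ({d} : Set H) := by rw [htop]; exact Subgroup.mem_top g
  exact ((Subgroup.mem_centralizer_iff.1 hg) d rfl).symm

/-- From a subgroup of index two to a `σ`-invariant one containing all `g⁻¹ * σ g`. -/
theorem exists_invariant (σ : H →* H) (hσσ : ∀ h, σ (σ h) = h) (K₀ : Subgroup H)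
    (hK₀ : K₀.index = 2) :
    ∃ K : Subgroup H, K.index = 2 ∧ (∀ k ∈ K, σ k ∈ K) ∧ ∀ g : H, g⁻¹ * σ g ∈ K := by
  have hmul : ∀ a b : H, a * b ∈ K₀ ↔ (a ∈ K₀ ↔ b ∈ K₀) :=
    fun a b => Subgroup.mul_mem_iff_of_index_two hK₀
  by_cases hall : ∀ h, h ∈ K₀ ↔ σ h ∈ K₀
  · refine ⟨K₀, hK₀, fun k hk => (hall k).1 hk, ?_⟩
    intro g
    rw [hmul, inv_mem_iff]
    exact hall g
  · push Not at hall
    obtain ⟨a, ha⟩ := hall
    let K : Subgroup H :=
      { carrier := {h | h ∈ K₀ ↔ σ h ∈ K₀}
        mul_mem' := by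
          intro x y hx hy
          simp only [Set.mem_ofPred_eq] at *
          rw [map_mul, hmul, hmul, hx, hy]
        one_mem' := by
          simp only [Set.mem_ofPred_eq, map_one]
        inv_mem' := by
          intro x hx
          simp only [Set.mem_ofPred_eq] at *
          rw [map_inv, inv_mem_iff, inv_mem_iff]
          exact hx }
    have hmem : ∀ h, h ∈ K ↔ (h ∈ K₀ ↔ σ h ∈ K₀) := fun h => Iff.rfl
    refine ⟨K, ?_, ?_, ?_⟩
    · rw [Subgroup.index_eq_two_iff]
      refine ⟨a, fun b => ?_⟩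
      rw [hmem, hmem, map_mul, hmul, hmul]
      unfold Xor
      by_cases h1 : a ∈ K₀ <;> by_cases h2 : σ a ∈ K₀ <;> by_cases h3 : b ∈ K₀ <;>
        by_cases h4 : σ b ∈ K₀ <;> simp_all
    · intro k hk
      rw [hmem] at hk ⊢
      rw [hσσ]
      exact hk.symm
    · intro g
      rw [hmem, map_mul, map_inv, hσσ, hmul, hmul, inv_mem_iff, inv_mem_iff]
      exact Iff.comm

end Cfsg.Agent.Lib.Helper52.Idx2Abs
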