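import Mathlib

/-!
A finite group `Γ` of units of a ring `E` with a commutative normal subgroup `A` whose
centralizer in `E` is a finite domain: `Γ` has a cyclic normal subgroup with commutative quotient.
-/

set_option autoImplicit false

namespace Cfsg.Agent.Lib.Helper52.Idx2Ring

/-- ring automorphisms of a finite domain commute -/
theorem ringAut_comm {D : Type*} [Ring D] [IsDomain D] [Finite D] (α β : D ≃+* D) (x : D) :
    α (β x) = β (α x) := by
  classical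
  let _ : Field D := (Finite.isDomain_to_isField D).toField
  have hcyc : IsCyclic Dˣ := inferInstance
  obtain ⟨ζ, hζ⟩ := IsCyclic.exists_generator (α := Dˣ)
  have key : ∀ γ : D ≃+* D, ∃ k : ℤ, ∀ i : ℤ, γ ((ζ ^ i : Dˣ) : D) = ((ζ ^ (k * i) : Dˣ) : D) := by
    intro γ
    obtain ⟨k, hk⟩ := Subgroup.mem_zpowers_iff.1 (hζ (Units.map (γ.toRingHom : D →* D) ζ))
    refine ⟨k, fun i => ?_⟩
    have h1 : Units.map (γ.toRingHom : D →* D) (ζ ^ i) = ζ ^ (k * i) := by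
      rw [map_zpow, ← hk, ← zpow_mul]
    have h2 := congrArg (fun u : Dˣ => (u : D)) h1
    simpa using h2
  by_cases hx : x = 0
  · rw [hx, map_zero, map_zero, map_zero]
  · obtain ⟨i, hi⟩ := Subgroup.mem_zpowers_iff.1 (hζ (Units.mk0 x hx))
    have hxi : x = ((ζ ^ i : Dˣ) : D) := by rw [hi]; rfl
    obtain ⟨k, hk⟩ := key α
    obtain ⟨l, hl⟩ := key β
    rw [hxi, hl, hk, hk, hl]
    have : k * (l * i) = l * (k * i) := by ring
    rw [this]

variable {E : Type*} [Ring E]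

theorem conj_mem (S : Set E) (w : Eˣ) (hw : ∀ k ∈ S, (↑w⁻¹ : E) * k * ↑w ∈ S) (d : E)
    (hd : d ∈ Subring.centralizer S) : (↑w : E) * d * ↑w⁻¹ ∈ Subring.centralizer S := by
  rw [Subring.mem_centralizer_iff]
  intro k hk
  have h1 : (↑w⁻¹ * k * ↑w) * d = d * (↑w⁻¹ * k * ↑w) :=
    (Subring.mem_centralizer_iff.1 hd) _ (hw k hk)
  calc k * (↑w * d * ↑w⁻¹) = ↑w * ((↑w⁻¹ * k * ↑w) * d) * ↑w⁻¹ := by
        simp only [mul_assoc, Units.mul_inv_cancel_left]
    _ = ↑w * (d * (↑w⁻¹ * k * ↑w)) * ↑w⁻¹ := by rw [h1]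
    _ = ↑w * d * ↑w⁻¹ * k := by
        simp only [mul_assoc, Units.mul_inv, mul_one]

/-- conjugation by a unit normalizing `S`, on the centralizer of `S` -/
def cj (S : Set E) (w : Eˣ) (hw : ∀ k ∈ S, (↑w⁻¹ : E) * k * ↑w ∈ S)
    (hw' : ∀ k ∈ S, (↑w : E) * k * ↑w⁻¹ ∈ S) :
    ↥(Subring.centralizer S) ≃+* ↥(Subring.centralizer S) where
  toFun d := ⟨↑w * d.1 * ↑w⁻¹, conj_mem S w hw d.1 d.2⟩
  invFun d := ⟨↑w⁻¹ * d.1 * ↑w, by
    have := conj_mem S w⁻¹ (by simpa using hw') d.1 d.2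
    simpa using this⟩
  left_inv := by
    intro d
    apply Subtype.ext
    show (↑w⁻¹ : E) * (↑w * d.1 * ↑w⁻¹) * ↑w = d.1
    simp only [mul_assoc, Units.inv_mul, mul_one, Units.inv_mul_cancel_left]
  right_inv := by
    intro d
    apply Subtype.ext
    show (↑w : E) * (↑w⁻¹ * d.1 * ↑w) * ↑w⁻¹ = d.1
    simp only [mul_assoc, Units.mul_inv, mul_one, Units.mul_inv_cancel_left]
  map_mul' := by
    intro a b
    apply Subtype.ext
    show (↑w : E) * (a.1 * b.1) * ↑w⁻¹ = (↑w * a.1 * ↑w⁻¹) * (↑w * b.1 * ↑w⁻¹)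
    simp only [mul_assoc, Units.inv_mul_cancel_left]
  map_add' := by
    intro a b
    apply Subtype.ext
    show (↑w : E) * (a.1 + b.1) * ↑w⁻¹ = (↑w * a.1 * ↑w⁻¹) + (↑w * b.1 * ↑w⁻¹)
    rw [mul_add, add_mul]

theorem cj_apply (S : Set E) (w : Eˣ) (hw : ∀ k ∈ S, (↑w⁻¹ : E) * k * ↑w ∈ S)
    (hw' : ∀ k ∈ S, (↑w : E) * k * ↑w⁻¹ ∈ S) (d : ↥(Subring.centralizer S)) :
    ((cj S w hw hw' d : ↥(Subring.centralizer S)) : E) = ↑w * d.1 * ↑w⁻¹ := rfl

theorem meta_of_centralizer {Γ : Type*} [Group Γ] [Finite Γ] (u : Γ →* Eˣ)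
    (hu : Function.Injective u) (A : Subgroup Γ) [hA : A.Normal]
    (hAc : ∀ a ∈ A, ∀ b ∈ A, a * b = b * a)
    (hfin : Finite ↥(Subring.centralizer ((fun a : Γ => ((u a : Eˣ) : E)) '' (A : Set Γ))))
    (hdom : IsDomain ↥(Subring.centralizer ((fun a : Γ => ((u a : Eˣ) : E)) '' (A : Set Γ)))) :
    ∃ K : Subgroup Γ, K.Normal ∧ IsCyclic K ∧ ∀ a b : Γ, a * b * a⁻¹ * b⁻¹ ∈ K := by
  classical
  set S : Set E := (fun a : Γ => ((u a : Eˣ) : E)) '' (A : Set Γ) with hS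
  have hw : ∀ g : Γ, ∀ k ∈ S, (↑(u g)⁻¹ : E) * k * ↑(u g) ∈ S := by
    rintro g k ⟨a, ha, rfl⟩
    refine ⟨g⁻¹ * a * g, ?_, ?_⟩
    · have := hA.conj_mem a ha g⁻¹
      rwa [inv_inv] at this
    · show ((u (g⁻¹ * a * g) : Eˣ) : E) = ↑(u g)⁻¹ * ↑(u a) * ↑(u g)
      rw [map_mul, map_mul, map_inv, Units.val_mul, Units.val_mul]
  have hw' : ∀ g : Γ, ∀ k ∈ S, (↑(u g) : E) * k * ↑(u g)⁻¹ ∈ S := by
    rintro g k ⟨a, ha, rfl⟩
    refine ⟨g * a * g⁻¹, hA.conj_mem a ha g, ?_⟩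
    show ((u (g * a * g⁻¹) : Eˣ) : E) = ↑(u g) * ↑(u a) * ↑(u g)⁻¹
    rw [map_mul, map_mul, map_inv, Units.val_mul, Units.val_mul]
  let ψ : Γ →* RingAut ↥(Subring.centralizer S) :=
    { toFun := fun g => cj S (u g) (hw g) (hw' g)
      map_one' := by
        apply RingEquiv.ext
        intro d
        apply Subtype.ext
        rw [cj_apply]
        simp
      map_mul' := by
        intro g h
        apply RingEquiv.ext
        intro d
        apply Subtype.ext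
        rw [RingAut.mul_apply, cj_apply, cj_apply, cj_apply]
        simp only [map_mul, mul_inv_rev, Units.val_mul, mul_assoc] }
  have hψ : ∀ (g : Γ) (d : ↥(Subring.centralizer S)),
      ((ψ g d : ↥(Subring.centralizer S)) : E) = ↑(u g) * d.1 * ↑(u g)⁻¹ := fun g d => rfl
  have hAS : ∀ a ∈ A, ((u a : Eˣ) : E) ∈ Subring.centralizer S := by
    intro a ha
    rw [Subring.mem_centralizer_iff]
    rintro k ⟨b, hb, rfl⟩
    show ((u b : Eˣ) : E) * ↑(u a) = ↑(u a) * ↑(u b)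
    rw [← Units.val_mul, ← Units.val_mul, ← map_mul, ← map_mul, hAc b hb a ha]
  have hker : ∀ k ∈ ψ.ker, ((u k : Eˣ) : E) ∈ Subring.centralizer S := by
    intro k hk
    rw [Subring.mem_centralizer_iff]
    rintro s ⟨a, ha, rfl⟩
    have h1 : ψ k ⟨_, hAS a ha⟩ = ⟨_, hAS a ha⟩ := by
      rw [MonoidHom.mem_ker.1 hk]; rfl
    have h2 : (↑(u k) : E) * ↑(u a) * ↑(u k)⁻¹ = ↑(u a) := by
      have := congrArg Subtype.val h1
      rwa [hψ] at this
    show ((u a : Eˣ) : E) * ↑(u k) = ↑(u k) * ↑(u a)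
    calc ((u a : Eˣ) : E) * ↑(u k) = (↑(u k) * ↑(u a) * ↑(u k)⁻¹) * ↑(u k) := by rw [h2]
      _ = ↑(u k) * ↑(u a) := by simp only [mul_assoc, Units.inv_mul, mul_one]
  refine ⟨ψ.ker, inferInstance, ?_, ?_⟩
  · let _ : CommRing ↥(Subring.centralizer S) :=
      { (inferInstance : Ring ↥(Subring.centralizer S)) with
        mul_comm := (Finite.isDomain_to_isField ↥(Subring.centralizer S)).mul_comm }
    let f : ↥ψ.ker →* ↥(Subring.centralizer S) :=
      { toFun := fun k => ⟨((u k : Eˣ) : E), hker k k.2⟩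
        map_one' := by
          apply Subtype.ext
          show ((u ((1 : ↥ψ.ker) : Γ) : Eˣ) : E) = 1
          simp
        map_mul' := by
          intro a b
          apply Subtype.ext
          show ((u ((a * b : ↥ψ.ker) : Γ) : Eˣ) : E) = ↑(u a) * ↑(u b)
          simp }
    have hf : Function.Injective f := by
      intro a b hab
      have h1 : ((u a : Eˣ) : E) = ↑(u b) := congrArg Subtype.val hab
      exact Subtype.ext (hu (Units.ext h1))
    exact isCyclic_of_injective_ringHom f hf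
  · intro a b
    rw [MonoidHom.mem_ker, map_mul, map_mul, map_mul, map_inv, map_inv]
    have hc : ψ a * ψ b = ψ b * ψ a := by
      apply RingEquiv.ext
      intro x
      rw [RingAut.mul_apply, RingAut.mul_apply]
      exact ringAut_comm (ψ a) (ψ b) x
    rw [hc]
    group

end Cfsg.Agent.Lib.Helper52.Idx2Ring
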