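import Mathlib
import Cfsg.Agent.Lib.Helper88.MCStmt

/-!
# S4245 piece COMPL: a cyclic Sylow `2`-subgroup has a normal complement
-/

set_option autoImplicit false

universe u

namespace Cfsg.Agent.Lib.Helper52.MCCOMPL

open Cfsg.Agent.Lib.Helper88.MCStmt

theorem main : Compl.{u} := by
  intro G _ _ T hT
  by_cases heven : 2 ∣ Nat.card G
  · have hmin : (Nat.card G).minFac = 2 := (Nat.minFac_eq_two_iff _).mpr heven
    have hc := IsCyclic.isComplement' hmin hT
    exact ⟨(MonoidHom.transferSylow T (hT.normalizer_le_centralizer hmin)).ker, inferInstance,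
      hc.symm.index_eq_card⟩
  · have hT1 : Nat.card (T : Subgroup G) = 1 := by
      obtain ⟨k, hk⟩ := T.2.exists_card_eq
      have hdvd : Nat.card (T : Subgroup G) ∣ Nat.card G := Subgroup.card_subgroup_dvd_card _
      rcases Nat.eq_zero_or_pos k with h0 | h0
      · rw [hk, h0, pow_zero]
      · exfalso
        apply heven
        rw [hk] at hdvd
        exact (dvd_pow_self 2 h0.ne').trans hdvd
    exact ⟨⊤, inferInstance, by rw [Subgroup.index_top, hT1]⟩

end Cfsg.Agent.Lib.Helper52.MCCOMPL
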