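import Mathlib
import Cfsg.Agent.Lib.Helper88.MCStmt

/-!
# S4245 piece QUOT: the hypothesis passes to quotients
-/

set_option autoImplicit false

universe u

namespace Cfsg.Agent.Lib.Helper52.MCQUOT

open Cfsg.Agent.Lib.Helper88.MCStmt

theorem main : Quot.{u} := by
  intro G _ _ N _ h
  obtain ⟨A, p, s, hp, hAi, B, hBn, hBc, hABc, r, hr⟩ := h
  classical
  have hπ : Function.Surjective (QuotientGroup.mk' N) := QuotientGroup.mk'_surjective N
  have hidx : (A.map (QuotientGroup.mk' N)).index ∣ A.index := Subgroup.index_map_dvd A hπ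
  rw [hAi] at hidx
  obtain ⟨s', -, hs'⟩ := (Nat.dvd_prime_pow hp).mp hidx
  obtain ⟨φ, hφ⟩ : ∃ φ : ↥A →* ↥(A.map (QuotientGroup.mk' N)), Function.Surjective φ :=
    ⟨(QuotientGroup.mk' N).subgroupMap A, (QuotientGroup.mk' N).subgroupMap_surjective A⟩
  have hB'n : (B.map φ).Normal := Subgroup.Normal.map hBn φ hφ
  have hB'c : IsCyclic ↥(B.map φ) :=
    isCyclic_of_surjective (φ.subgroupMap B) (φ.subgroupMap_surjective B)
  have hle : B ≤ (B.map φ).comap φ := Subgroup.le_comap_map φ B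
  have hψ : Function.Surjective (QuotientGroup.map B (B.map φ) φ hle) := by
    intro y
    obtain ⟨a', rfl⟩ := QuotientGroup.mk_surjective y
    obtain ⟨a, rfl⟩ := hφ a'
    exact ⟨QuotientGroup.mk a, rfl⟩
  have hq'c : IsCyclic (↥(A.map (QuotientGroup.mk' N)) ⧸ B.map φ) :=
    isCyclic_of_surjective (QuotientGroup.map B (B.map φ) φ hle) hψ
  have hcard : Nat.card (↥(A.map (QuotientGroup.mk' N)) ⧸ B.map φ) ∣ 2 ^ r := by
    rw [← hr]
    exact Subgroup.card_dvd_of_surjective (QuotientGroup.map B (B.map φ) φ hle) hψ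
  obtain ⟨r', -, hr'⟩ := (Nat.dvd_prime_pow Nat.prime_two).mp hcard
  unfold Hyp
  exact ⟨A.map (QuotientGroup.mk' N), p, s', hp, hs', B.map φ, hB'n, hB'c, hq'c, r', hr'⟩

end Cfsg.Agent.Lib.Helper52.MCQUOT
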