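import Mathlib
import Cfsg.Agent.Lib.Helper88.MCStmt

/-!
# S4245 piece SYLCYC: a cyclic Sylow `2`-subgroup of order `2 ^ r`
-/

set_option autoImplicit false

universe u

namespace Cfsg.Agent.Lib.Helper52.MCSYLCYC

open Cfsg.Agent.Lib.Helper88.MCStmt

theorem main : SylCyc.{u} := by
  intro G _ _ A p s hp hp2 hAi B _ hcyc r hr hBodd
  classical
  obtain ⟨q, hq⟩ := hcyc.exists_generator
  have hqord : orderOf q = 2 ^ r := by
    rw [← hr]; exact orderOf_eq_card_of_forall_mem_zpowers hq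
  obtain ⟨a, rfl⟩ := QuotientGroup.mk_surjective q
  have hdvd : 2 ^ r ∣ orderOf a := by
    rw [← hqord]
    apply orderOf_dvd_of_pow_eq_one
    rw [← QuotientGroup.mk_pow, pow_orderOf_eq_one, QuotientGroup.mk_one]
  have hoa : orderOf a ≠ 0 := (orderOf_pos a).ne'
  obtain ⟨n, hn⟩ : ∃ n : ℕ, n = orderOf a / 2 ^ r := ⟨_, rfl⟩
  have hn_dvd : n ∣ orderOf a := by rw [hn]; exact Nat.div_dvd_of_dvd hdvd
  have hn0 : n ≠ 0 := by
    intro h0
    rw [h0] at hn_dvd
    exact hoa (zero_dvd_iff.mp hn_dvd)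
  have hto : orderOf (a ^ n) = 2 ^ r := by
    rw [orderOf_pow_of_dvd hn0 hn_dvd, hn, Nat.div_div_self hdvd hoa]
  have hto' : orderOf ((a ^ n : ↥A) : G) = 2 ^ r := by
    rw [Subgroup.orderOf_coe]; exact hto
  have h1 := Subgroup.card_mul_index A
  have h2 := Subgroup.card_eq_card_quotient_mul_card_subgroup B
  have hpodd : Odd p := hp.eq_two_or_odd'.resolve_left hp2
  have hmodd : Odd (Nat.card ↥B * p ^ s) := hBodd.mul hpodd.pow
  have hG : Nat.card G = 2 ^ r * (Nat.card ↥B * p ^ s) := by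
    rw [← h1, h2, hr, hAi, mul_assoc]
  have hm2 : ¬ 2 ∣ Nat.card ↥B * p ^ s := by
    intro h; exact (Nat.not_even_iff_odd.mpr hmodd) (even_iff_two_dvd.mpr h)
  have hm0 : Nat.card ↥B * p ^ s ≠ 0 := fun h => hm2 (h ▸ dvd_zero 2)
  have hfac : (Nat.card G).factorization 2 = r := by
    rw [hG, Nat.factorization_mul (pow_ne_zero r two_ne_zero) hm0, Finsupp.add_apply,
      Nat.factorization_pow, Finsupp.smul_apply, Nat.prime_two.factorization_self,
      Nat.factorization_eq_zero_of_not_dvd hm2, smul_eq_mul, mul_one, add_zero]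
  have hZ : Nat.card (Subgroup.zpowers ((a ^ n : ↥A) : G)) =
      2 ^ (Nat.card G).factorization 2 := by
    rw [Nat.card_zpowers, hto', hfac]
  refine ⟨Sylow.ofCard (Subgroup.zpowers ((a ^ n : ↥A) : G)) hZ, ?_, ?_⟩
  · show IsCyclic (Subgroup.zpowers ((a ^ n : ↥A) : G))
    infer_instance
  · show Nat.card (Subgroup.zpowers ((a ^ n : ↥A) : G)) = 2 ^ r
    rw [Nat.card_zpowers, hto']

end Cfsg.Agent.Lib.Helper52.MCSYLCYC
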