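import Mathlib
import Cfsg.Agent.Lib.Helper7.ReeSolvStmt

/-!
# S2361 piece ARITH
-/

set_option autoImplicit false

namespace Cfsg.Agent.Lib.Helper52.RSARITH

open Cfsg.Agent.Lib.Helper42.ReeSpStmt Cfsg.Agent.Lib.Helper7.ReeSolvStmt

theorem main : Cfsg.Agent.Lib.Helper7.ReeSolvStmt.Arith := by
  intro m p k hp hp3 hdvd
  have hq8 : qq m % 8 = 3 := by
    show 3 ^ (2 * m + 1) % 8 = 3
    rw [pow_succ, pow_mul, Nat.mul_mod, Nat.pow_mod]
    norm_num
  have hrq : rr m ≤ qq m := Nat.pow_le_pow_right (by norm_num) (by omega)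
  have hrr : rr m * rr m = 3 * qq m := by
    show 3 ^ (m + 1) * 3 ^ (m + 1) = 3 * 3 ^ (2 * m + 1)
    ring
  have hpq : ¬ p ∣ qq m := by
    intro h
    have h1 : p ∣ 3 := Nat.Prime.dvd_of_dvd_pow hp h
    have := Nat.le_of_dvd (by norm_num) h1
    omega
  have hpr : ¬ p ∣ rr m := by
    intro h
    have h1 : p ∣ 3 := Nat.Prime.dvd_of_dvd_pow hp h
    have := Nat.le_of_dvd (by norm_num) h1
    omega
  generalize qq m = q at *
  generalize rr m = r at *
  obtain ⟨t, rfl⟩ : ∃ t, q = 8 * t + 3 := ⟨q / 8, by omega⟩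
  obtain ⟨s, hs⟩ : ∃ s, 8 * t + 3 = r + s := ⟨8 * t + 3 - r, by omega⟩
  have e1 : (8 * t + 3 - 1) / 2 = 4 * t + 1 := by omega
  have e2 : (8 * t + 3 + 1) / 4 = 2 * t + 1 := by omega
  have e4 : 8 * t + 3 - r + 1 = s + 1 := by omega
  rw [e1, e2, e4]
  have hcd : (8 * t + 3 + r + 1) * (s + 1) = 2 * (4 * t + 1) * (8 * t + 3) + 1 := by
    have h1 : (8 * t + 3 + r + 1) * (s + 1) + (r + s) = (r + s) * (r + s) + 1 := by
      calc (8 * t + 3 + r + 1) * (s + 1) + (r + s)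
          = (r + s + r + 1) * (s + 1) + (r + s) := by rw [hs]
        _ = 3 * (r + s) + (2 * r * s + s * s + 1) := by ring
        _ = r * r + (2 * r * s + s * s + 1) := by rw [hrr, hs]
        _ = (r + s) * (r + s) + 1 := by ring
    rw [← hs] at h1
    have h2 : (8 * t + 3) * (8 * t + 3) + 1 =
        2 * (4 * t + 1) * (8 * t + 3) + 1 + (8 * t + 3) := by ring
    rw [h2] at h1
    exact Nat.add_right_cancel h1
  have htot : (8 * t + 3) ^ 3 * (8 * t + 3 - 1) * ((8 * t + 3) ^ 3 + 1) =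
      (8 * (8 * t + 3) ^ 3) *
        ((4 * t + 1) * (2 * t + 1) * ((8 * t + 3 + r + 1) * (s + 1))) := by
    have e5 : 8 * t + 3 - 1 = 2 * (4 * t + 1) := by omega
    rw [e5, hcd]
    ring
  rw [htot] at hdvd
  have hp8 : ¬ p ∣ 8 * (8 * t + 3) ^ 3 := by
    intro h
    rcases (Nat.Prime.dvd_mul hp).mp h with h | h
    · have h1 : p ∣ 2 := Nat.Prime.dvd_of_dvd_pow hp (show p ∣ 2 ^ 3 from h)
      have := Nat.le_of_dvd (by norm_num) h1
      omega
    · exact hpq (Nat.Prime.dvd_of_dvd_pow hp h)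
  have cop : ∀ x : ℕ, ¬ p ∣ x → Nat.Coprime (p ^ k) x := fun x hx =>
    Nat.Coprime.pow_left k ((Nat.Prime.coprime_iff_not_dvd hp).mpr hx)
  have h1 : p ^ k ∣ (4 * t + 1) * (2 * t + 1) * ((8 * t + 3 + r + 1) * (s + 1)) :=
    Nat.Coprime.dvd_of_dvd_mul_left (cop _ hp8) hdvd
  have hab : p ∣ 4 * t + 1 → ¬ p ∣ 2 * t + 1 := by
    intro ha hb
    have h2 : p ∣ 2 * (2 * t + 1) := Dvd.dvd.mul_left hb 2
    have h3 : 2 * (2 * t + 1) = (4 * t + 1) + 1 := by ring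
    rw [h3] at h2
    have h4 := (Nat.dvd_add_right ha).mp h2
    exact hp.one_lt.ne' (Nat.dvd_one.mp h4)
  have hacd : p ∣ 4 * t + 1 → ¬ p ∣ (8 * t + 3 + r + 1) * (s + 1) := by
    intro ha hcd'
    rw [hcd] at hcd'
    have h2 : p ∣ 2 * (4 * t + 1) * (8 * t + 3) := Dvd.dvd.mul_right (Dvd.dvd.mul_left ha 2) _
    have h4 := (Nat.dvd_add_right h2).mp hcd'
    exact hp.one_lt.ne' (Nat.dvd_one.mp h4)
  have hbcd : p ∣ 2 * t + 1 → ¬ p ∣ (8 * t + 3 + r + 1) * (s + 1) := by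
    intro hb hcd'
    have h3 : (8 * t + 3 + r + 1) * (s + 1) = 4 * (2 * t + 1) * (8 * t + 1) + 3 := by
      rw [hcd]
      ring
    rw [h3] at hcd'
    have h2 : p ∣ 4 * (2 * t + 1) * (8 * t + 1) := Dvd.dvd.mul_right (Dvd.dvd.mul_left hb 4) _
    have h4 := (Nat.dvd_add_right h2).mp hcd'
    have := Nat.le_of_dvd (by norm_num) h4
    omega
  have hcd2 : p ∣ 8 * t + 3 + r + 1 → ¬ p ∣ s + 1 := by
    intro hc hd
    have h3 : 8 * t + 3 + r + 1 = (s + 1) + 2 * r := by omega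
    rw [h3] at hc
    have h4 : p ∣ 2 * r := (Nat.dvd_add_right hd).mp hc
    rcases (Nat.Prime.dvd_mul hp).mp h4 with h | h
    · have := Nat.le_of_dvd (by norm_num) h
      omega
    · exact hpr h
  by_cases ha : p ∣ 4 * t + 1
  · left
    have h2 : p ^ k ∣ (4 * t + 1) * (2 * t + 1) :=
      Nat.Coprime.dvd_of_dvd_mul_right (cop _ (hacd ha)) h1
    exact Nat.Coprime.dvd_of_dvd_mul_right (cop _ (hab ha)) h2
  · by_cases hb : p ∣ 2 * t + 1
    · right; left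
      have h2 : p ^ k ∣ (4 * t + 1) * (2 * t + 1) :=
        Nat.Coprime.dvd_of_dvd_mul_right (cop _ (hbcd hb)) h1
      exact Nat.Coprime.dvd_of_dvd_mul_left (cop _ ha) h2
    · have h2 : p ^ k ∣ (8 * t + 3 + r + 1) * (s + 1) := by
        have hab' : ¬ p ∣ (4 * t + 1) * (2 * t + 1) := fun h => by
          rcases (Nat.Prime.dvd_mul hp).mp h with h | h
          · exact ha h
          · exact hb h
        exact Nat.Coprime.dvd_of_dvd_mul_left (cop _ hab') h1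
      by_cases hc : p ∣ 8 * t + 3 + r + 1
      · right; right; right
        exact Nat.Coprime.dvd_of_dvd_mul_right (cop _ (hcd2 hc)) h2
      · right; right; left
        exact Nat.Coprime.dvd_of_dvd_mul_left (cop _ hc) h2

end Cfsg.Agent.Lib.Helper52.RSARITH
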