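import Mathlib
import Cfsg.Agent.Lib.Helper7.ReeSolvStmt

/-!
# S2361 piece EXP2
-/

set_option autoImplicit false

namespace Cfsg.Agent.Lib.Helper52.RSEXP2

open Cfsg.Agent.Lib.Helper42.ReeSpStmt Cfsg.Agent.Lib.Helper7.ReeSolvStmt

universe u

theorem main : Cfsg.Agent.Lib.Helper7.ReeSolvStmt.Exp2.{u} := by
  intro G _ _ m hE x hx
  obtain ⟨k, hk⟩ := hx
  have hq8 : qq m % 8 = 3 := by
    show 3 ^ (2 * m + 1) % 8 = 3
    rw [pow_succ, pow_mul, Nat.mul_mod, Nat.pow_mod]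
    norm_num
  have hdvd : orderOf x ∣ 2 ^ k := orderOf_dvd_of_pow_eq_one hk
  obtain ⟨j, hj, hjo⟩ := (Nat.dvd_prime_pow Nat.prime_two).1 hdvd
  by_cases hj2 : j ≤ 1
  · have : orderOf x ∣ 2 := by
      rw [hjo]
      calc 2 ^ j ∣ 2 ^ 1 := pow_dvd_pow 2 hj2
        _ = 2 := by norm_num
    exact orderOf_dvd_iff_pow_eq_one.1 this
  · exfalso
    have h4 : 4 ∣ orderOf x := by
      rw [hjo]
      calc 4 = 2 ^ 2 := by norm_num
        _ ∣ 2 ^ j := pow_dvd_pow 2 (by omega)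
    have h2 : 2 ∣ orderOf x := Dvd.dvd.trans (by norm_num) h4
    have hE' := hE x h2
    generalize qq m = q at *
    rcases hE' with h | h | h
    · have := Dvd.dvd.trans h4 h
      omega
    · have := Dvd.dvd.trans h4 h
      omega
    · have := Dvd.dvd.trans h4 h
      omega

end Cfsg.Agent.Lib.Helper52.RSEXP2
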