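import Mathlib
import Cfsg.Agent.Lib.Helper7.ReeSolvStmt

/-!
# S2361 piece SYL2
-/

set_option autoImplicit false

namespace Cfsg.Agent.Lib.Helper52.RSSYL2

open Cfsg.Agent.Lib.Helper42.ReeSpStmt Cfsg.Agent.Lib.Helper7.ReeSolvStmt

universe u v

theorem main : Cfsg.Agent.Lib.Helper7.ReeSolvStmt.Syl2.{u, v} := by
  intro G _ _ U H A K _ _ m hAx P
  have hq8 : qq m % 8 = 3 := by
    show 3 ^ (2 * m + 1) % 8 = 3
    rw [pow_succ, pow_mul, Nat.mul_mod, Nat.pow_mod]
    norm_num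
  have hcard := hAx.card
  generalize qq m = q at hq8 hcard
  obtain ⟨t, rfl⟩ : ∃ t, q = 8 * t + 3 := ⟨q / 8, by omega⟩
  obtain ⟨N, hN⟩ : ∃ N, N = (8 * t + 3) ^ 3 * (4 * t + 1) * (2 * t + 1) *
      ((8 * t + 3) * (4 * t + 1) * 2 + 1) := ⟨_, rfl⟩
  have hG : Nat.card G = 8 * N := by
    rw [hcard, hN]
    have e1 : 8 * t + 3 - 1 = 2 * (4 * t + 1) := by omega
    rw [e1]
    ring
  have hNodd : ¬ 2 ∣ N := by
    rw [hN]
    intro h
    rcases (Nat.Prime.dvd_mul Nat.prime_two).1 h with h | h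
    · rcases (Nat.Prime.dvd_mul Nat.prime_two).1 h with h | h
      · rcases (Nat.Prime.dvd_mul Nat.prime_two).1 h with h | h
        · have := Nat.Prime.dvd_of_dvd_pow Nat.prime_two h
          omega
        · omega
      · omega
    · omega
  have : Fact (Nat.Prime 2) := ⟨Nat.prime_two⟩
  have hP := Sylow.card_eq_multiplicity P
  have hGne : Nat.card G ≠ 0 := Nat.card_pos.ne'
  have h3 : 3 ≤ (Nat.card G).factorization 2 := by
    rw [← Nat.Prime.pow_dvd_iff_le_factorization Nat.prime_two hGne, hG]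
    exact ⟨N, by norm_num⟩
  have h4 : ¬ 4 ≤ (Nat.card G).factorization 2 := by
    rw [← Nat.Prime.pow_dvd_iff_le_factorization Nat.prime_two hGne, hG]
    intro h
    have h2 : 8 * 2 ∣ 8 * N := by
      have e : (2 : ℕ) ^ 4 = 8 * 2 := by norm_num
      rwa [e] at h
    exact hNodd ((Nat.mul_dvd_mul_iff_left (by norm_num)).1 h2)
  have h5 : (Nat.card G).factorization 2 = 3 := by omega
  show Nat.card ↥(P : Subgroup G) = 8
  rw [hP, h5]
  norm_num

end Cfsg.Agent.Lib.Helper52.RSSYL2
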