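import Mathlib
import Cfsg.Agent.Lib.Helper52.S3TOdd

/-!
Sharply triply transitive groups of even degree: the setup `QSetup` (points `a, b, c`, the
regular normal subgroup `U` of the stabiliser of `a`, the involution `t` interchanging `a, b` and
fixing `c`, the involution `j` of the two point stabiliser, `u1 ∈ U` with `u1 • b = c`), and the
fact that `t` inverts the elements of order three of the two point stabiliser.
-/

set_option autoImplicit false
set_option linter.unusedSectionVars false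

namespace Cfsg.Agent.Lib.Helper52.S3TQ

open Cfsg.Agent.Lib.Helper52

universe u v

/-- `S3TOdd.exists_pre` at prescribed points -/
theorem exists_pre_at {G : Type u} [Group G] {Ω : Type v} [MulAction G Ω] [Finite Ω]
    (h3 : ∀ x y z x' y' z' : Ω, x ≠ y → x ≠ z → y ≠ z → x' ≠ y' → x' ≠ z' → y' ≠ z' →
      ∃ g : G, g • x = x' ∧ g • y = y' ∧ g • z = z')
    (hfix : ∀ (g : G) (x y z : Ω), x ≠ y → x ≠ z → y ≠ z → g • x = x → g • y = y → g • z = z →
      g = 1)
    (hcard : 4 ≤ Nat.card Ω) (a b c : Ω) (hab : a ≠ b) (hac : a ≠ c) (hbc : b ≠ c) :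
    ∃ P : S3TOdd.Pre G Ω, P.a = a ∧ P.b = b ∧ P.c = c := by
  classical
  let _ : Fintype Ω := Fintype.ofFinite Ω
  obtain ⟨d, hda, hdb, hdc⟩ : ∃ d : Ω, d ≠ a ∧ d ≠ b ∧ d ≠ c := by
    by_contra hcon
    push Not at hcon
    have hsub : (Finset.univ : Finset Ω) ⊆ {a, b, c} := by
      intro x _
      simp only [Finset.mem_insert, Finset.mem_singleton]
      by_cases h1 : x = a
      · exact Or.inl h1
      · by_cases h2 : x = b
        · exact Or.inr (Or.inl h2)
        · exact Or.inr (Or.inr (hcon x h1 h2))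
    have h1 := Finset.card_le_card hsub
    have h2 : ({a, b, c} : Finset Ω).card ≤ 3 := Finset.card_le_three
    rw [Finset.card_univ, ← Nat.card_eq_fintype_card] at h1
    omega
  have hfinG : Finite G := by
    apply Finite.of_injective (fun g : G => (g • a, g • b, g • c))
    intro g g' h
    simp only [Prod.mk.injEq] at h
    obtain ⟨h1, h2, h3'⟩ := h
    have : g'⁻¹ * g = 1 := hfix _ a b c hab hac hbc
      (by rw [mul_smul, h1, inv_smul_smul]) (by rw [mul_smul, h2, inv_smul_smul])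
      (by rw [mul_smul, h3', inv_smul_smul])
    calc g = g' * (g'⁻¹ * g) := by group
      _ = g' := by rw [this, mul_one]
  have hsub : ∀ g : ↥(MulAction.stabilizer G a), g • b ≠ a := by
    intro g h
    have h1 : (g : G) • a = a := g.2
    have h2 : (g : G) • b = (g : G) • a := by rw [h1]; exact h
    exact hab (smul_left_cancel _ h2).symm
  have hTI : ∀ x : ↥(MulAction.stabilizer G a), x ≠ 1 → x • b = b →
      ∀ g : ↥(MulAction.stabilizer G a), x • (g • b) = g • b → g • b = b := by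
    intro x hx1 hxb g hxg
    by_contra hne
    apply hx1
    apply Subtype.ext
    exact hfix (x : G) a b (g • b) hab (Ne.symm (hsub g)) (Ne.symm hne) x.2 hxb hxg
  have hbot : ∃ x : ↥(MulAction.stabilizer G a), x ≠ 1 ∧ x • b = b := by
    obtain ⟨x₀, e1, e2, e3⟩ := h3 a b c a b d hab hac hbc hab (Ne.symm hda) (Ne.symm hdb)
    refine ⟨⟨x₀, e1⟩, ?_, e2⟩
    intro h
    have h' : x₀ = 1 := congrArg Subtype.val h
    rw [h', one_smul] at e3
    exact hdc e3.symm
  have horb : ∀ x : Ω, x ≠ a → ∃ g : ↥(MulAction.stabilizer G a), g • b = x := by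
    intro x hx
    by_cases hxb : x = b
    · exact ⟨1, by rw [one_smul, hxb]⟩
    · obtain ⟨g, e1, e2, -⟩ := h3 a b x a x b hab (Ne.symm hx) (Ne.symm hxb) (Ne.symm hx) hab hxb
      exact ⟨⟨g, e1⟩, e2⟩
  have htop : ∃ x : ↥(MulAction.stabilizer G a), x • b ≠ b := by
    obtain ⟨g, hg⟩ := horb c (Ne.symm hac)
    refine ⟨g, ?_⟩
    rw [hg]
    exact Ne.symm hbc
  obtain ⟨M, hM, hMtr⟩ := ZassFrob.frob_action (X := ↥(MulAction.stabilizer G a)) b hTI hbot htop
  have hmemU : ∀ u : G, u ∈ M.map (MulAction.stabilizer G a).subtype ↔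
      ∃ hu : u • a = a, (⟨u, hu⟩ : ↥(MulAction.stabilizer G a)) ∈ M := by
    intro u
    constructor
    · rintro ⟨x, hx, rfl⟩
      exact ⟨x.2, hx⟩
    · rintro ⟨hu, hx⟩
      exact ⟨⟨u, hu⟩, hx, rfl⟩
  have hfree : ∀ u ∈ M.map (MulAction.stabilizer G a).subtype, ∀ x : Ω, x ≠ a → u • x = x →
      u = 1 := by
    intro u hu x hx hux
    obtain ⟨hua, hm⟩ := (hmemU u).1 hu
    rcases (hM _).1 hm with h | h
    · exact congrArg Subtype.val h
    · exfalso
      obtain ⟨g, hg⟩ := horb x hx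
      apply h g
      rw [hg]
      exact hux
  exact ⟨{ a := a
           b := b
           c := c
           hab := hab
           hac := hac
           hbc := hbc
           U := M.map (MulAction.stabilizer G a).subtype
           h3 := h3
           hfix := hfix
           hUa := by
             intro u hu
             exact ((hmemU u).1 hu).1
           hUtr := by
             intro x y hx hy
             obtain ⟨gx, hgx⟩ := horb x hx
             obtain ⟨gy, hgy⟩ := horb y hy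
             obtain ⟨mx, hmx, e1⟩ := hMtr gx
             obtain ⟨my, hmy, e2⟩ := hMtr gy
             refine ⟨((my * mx⁻¹ : ↥(MulAction.stabilizer G a)) : G), ?_, ?_⟩
             · exact ⟨my * mx⁻¹, M.mul_mem hmy (M.inv_mem hmx), rfl⟩
             · have e3 : mx⁻¹ • x = b := by rw [inv_smul_eq_iff, e1, hgx]
               show (my * mx⁻¹) • x = y
               rw [mul_smul, e3, e2, hgy]
           hUfree := hfree
           hUnorm := by
             intro g hg u hu
             obtain ⟨hua, hm⟩ := (hmemU u).1 hu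
             rw [hmemU]
             have hga : (g * u * g⁻¹) • a = a := by
               rw [mul_smul, mul_smul, inv_smul_eq_iff.2 hg.symm, hua, hg]
             refine ⟨hga, ?_⟩
             rw [hM]
             by_cases hu1 : u = 1
             · left
               apply Subtype.ext
               show g * u * g⁻¹ = 1
               rw [hu1]; group
             · right
               intro g' hg'
               have hg'' : (g * u * g⁻¹) • ((g' : G) • b) = (g' : G) • b := hg'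
               have hne : g⁻¹ • ((g' : G) • b) ≠ a := by
                 intro h
                 rw [inv_smul_eq_iff, hg] at h
                 exact hsub g' h
               apply hu1
               apply hfree u hu _ hne
               rw [mul_smul, mul_smul] at hg''
               have h4 := congrArg (g⁻¹ • ·) hg''
               simp only [inv_smul_smul] at h4
               exact h4 }, rfl, rfl, rfl⟩

/-- the setup in even degree -/
structure QSetup (G : Type u) [Group G] (Ω : Type v) [MulAction G Ω] extends S3TOdd.Pre G Ω where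
  t : G
  hta : t • a = b
  htb : t • b = a
  htc : t • c = c
  htt : t * t = 1
  j : G
  hja : j • a = a
  hjb : j • b = b
  hjj : j * j = 1
  hj1 : j ≠ 1
  u1 : G
  hu1 : u1 ∈ U
  hu1c : u1 • b = c
  hu11 : u1 ≠ 1

theorem exists_qsetup {G : Type u} [Group G] {Ω : Type v} [MulAction G Ω] [Finite Ω]
    (P : S3TOdd.Pre G Ω) (heven : Even (Nat.card Ω)) (hcard : 4 ≤ Nat.card Ω) :
    ∃ S : QSetup G Ω, S.toPre = P := by
  have := P.finite_group
  obtain ⟨t, hta, htb, htc, htt⟩ := P.exists_t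
  obtain ⟨u1, hu1, hu1c, hu11⟩ := P.exists_u1
  have h1 := P.card_H hu1 hu11
  have h2 := P.card_U
  have hdvd : 2 ∣ Nat.card ↥(MulAction.stabilizer G P.a ⊓ MulAction.stabilizer G P.b) := by
    obtain ⟨k, hk⟩ := heven
    exact ⟨k - 1, by omega⟩
  have : Fact (Nat.Prime 2) := ⟨Nat.prime_two⟩
  obtain ⟨j', hj'⟩ := exists_prime_orderOf_dvd_card'
    (G := ↥(MulAction.stabilizer G P.a ⊓ MulAction.stabilizer G P.b)) 2 hdvd
  have hj1 : (j' : G) ≠ 1 := by
    intro h
    have h' : j' = 1 := Subtype.ext h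
    rw [h', orderOf_one] at hj'
    omega
  have hjj : (j' : G) * (j' : G) = 1 := by
    have h' := pow_orderOf_eq_one j'
    rw [hj', pow_two] at h'
    exact congrArg Subtype.val h'
  exact ⟨{ P with
           t := t, hta := hta, htb := htb, htc := htc, htt := htt
           j := (j' : G), hja := P.H_a j', hjb := P.H_b j', hjj := hjj, hj1 := hj1
           u1 := u1, hu1 := hu1, hu1c := hu1c, hu11 := hu11 }, rfl⟩

namespace QSetup

variable {G : Type u} [Group G] {Ω : Type v} [MulAction G Ω] [Finite Ω] (S : QSetup G Ω)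

theorem j_inv {u : G} (hu : u ∈ S.U) : S.j * u * S.j⁻¹ = u⁻¹ :=
  S.toPre.j_inverts S.hja S.hjb S.hjj S.hj1 u hu

theorem U_comm {u u' : G} (hu : u ∈ S.U) (hu' : u' ∈ S.U) : u * u' = u' * u :=
  S3TField.comm_of_inverted S.j u u' (S.j_inv hu) (S.j_inv hu') (S.j_inv (S.U.mul_mem hu hu'))

theorem j_unique {j' : G} (j'a : j' • S.a = S.a) (j'b : j' • S.b = S.b) (j'j' : j' * j' = 1)
    (j'1 : j' ≠ 1) : j' = S.j := by
  have h1 := S.j_inv S.hu1
  have h2 := S.toPre.j_inverts j'a j'b j'j' j'1 S.u1⁻¹ (S.U.inv_mem S.hu1)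
  have h3 : j' * S.j = 1 := by
    apply S.toPre.H_free (by rw [mul_smul, S.hja, j'a]) (by rw [mul_smul, S.hjb, j'b]) S.hu1 S.hu11
    calc j' * S.j * S.u1 * (j' * S.j)⁻¹ = j' * (S.j * S.u1 * S.j⁻¹) * j'⁻¹ := by group
      _ = j' * S.u1⁻¹ * j'⁻¹ := by rw [h1]
      _ = S.u1 := by rw [h2, inv_inv]
  have hji : S.j⁻¹ = S.j := by rw [inv_eq_iff_mul_eq_one]; exact S.hjj
  calc j' = j' * S.j * S.j⁻¹ := by group
    _ = S.j := by rw [h3, one_mul, hji]

theorem ti : S.t⁻¹ = S.t := by rw [inv_eq_iff_mul_eq_one]; exact S.htt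

theorem conj_t_a {h : G} (hb : h • S.b = S.b) : (S.t * h * S.t⁻¹) • S.a = S.a := by
  rw [S.ti, mul_smul, mul_smul, S.hta, hb, S.htb]

theorem conj_t_b {h : G} (ha : h • S.a = S.a) : (S.t * h * S.t⁻¹) • S.b = S.b := by
  rw [S.ti, mul_smul, mul_smul, S.htb, ha, S.hta]

theorem tj : S.t * S.j * S.t⁻¹ = S.j := by
  apply S.j_unique (S.conj_t_a S.hjb) (S.conj_t_b S.hja)
  · calc S.t * S.j * S.t⁻¹ * (S.t * S.j * S.t⁻¹) = S.t * (S.j * S.j) * S.t⁻¹ := by group
      _ = 1 := by rw [S.hjj]; group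
  · intro h
    apply S.hj1
    calc S.j = S.t⁻¹ * (S.t * S.j * S.t⁻¹) * S.t := by group
      _ = 1 := by rw [h]; group

theorem j_smul {u : G} (hu : u ∈ S.U) : S.j • (u • S.b) = u⁻¹ • S.b := by
  rw [← S.toPre.conj_smul_b u S.hjb, S.j_inv hu]

theorem t_smul (h : G) : S.t • (h • S.c) = (S.t * h * S.t⁻¹) • S.c := by
  rw [mul_smul, mul_smul, inv_smul_eq_iff.2 S.htc.symm]

theorem H_smul_c {h : G} (hb : h • S.b = S.b) : h • S.c = (h * S.u1 * h⁻¹) • S.b := by
  rw [S.toPre.conj_smul_b S.u1 hb, S.hu1c]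

theorem fix_t {h : G} (ha : h • S.a = S.a) (hb : h • S.b = S.b) (e : S.t * h * S.t⁻¹ = h) :
    h = 1 ∨ h = S.j := by
  have hc1 : S.t • (h • S.c) = h • S.c := by rw [S.t_smul, e]
  have hc2 : S.t • (S.j • S.c) = S.j • S.c := by rw [S.t_smul, S.tj]
  by_cases h1 : h • S.c = S.c
  · left
    exact S.hfix h _ _ _ S.hab S.hac S.hbc ha hb h1
  · by_cases h2 : h • S.c = S.j • S.c
    · right
      have h3 : S.j⁻¹ * h = 1 := S.hfix _ _ _ _ S.hab S.hac S.hbc
        (by rw [mul_smul, ha, inv_smul_eq_iff, S.hja])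
        (by rw [mul_smul, hb, inv_smul_eq_iff, S.hjb]) (by rw [mul_smul, h2, inv_smul_smul])
      calc h = S.j * (S.j⁻¹ * h) := by group
        _ = S.j := by rw [h3, mul_one]
    · exfalso
      have hjc : S.j • S.c ≠ S.c :=
        fun h => S.hj1 (S.hfix S.j _ _ _ S.hab S.hac S.hbc S.hja S.hjb h)
      have ht1 : S.t = 1 := S.hfix S.t S.c (S.j • S.c) (h • S.c) (Ne.symm hjc) (Ne.symm h1)
        (Ne.symm h2) S.htc hc2 hc1
      have h4 := S.hta
      rw [ht1, one_smul] at h4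
      exact S.hab h4

theorem tau_sq : (S.j * S.t) * (S.j * S.t) = 1 := by
  have h := S.tj
  calc (S.j * S.t) * (S.j * S.t) = S.j * (S.t * S.j * S.t⁻¹) * (S.t * S.t) := by group
    _ = 1 := by rw [h, S.hjj, S.htt, mul_one]

theorem tau_a : (S.j * S.t) • S.a = S.b := by rw [mul_smul, S.hta, S.hjb]

theorem tau_b : (S.j * S.t) • S.b = S.a := by rw [mul_smul, S.htb, S.hja]

/-- the element `j t u1` has order three -/
theorem tau_rel : (S.j * S.t) * S.u1 * (S.j * S.t) = S.u1⁻¹ * (S.j * S.t) * S.u1⁻¹ := by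
  have hui : S.u1⁻¹ ∈ S.U := S.U.inv_mem S.hu1
  have hui1 : S.u1⁻¹ ≠ 1 := inv_ne_one.2 S.hu11
  have e1 : ((S.j * S.t) * S.u1) • S.a = S.b := by
    rw [mul_smul, S.hUa _ S.hu1, S.tau_a]
  have e2 : ((S.j * S.t) * S.u1) • S.b = S.u1⁻¹ • S.b := by
    rw [mul_smul, S.hu1c, mul_smul, S.htc, ← S.hu1c, S.j_smul S.hu1]
  have e3 : ((S.j * S.t) * S.u1) • (S.u1⁻¹ • S.b) = S.a := by
    rw [mul_smul, smul_inv_smul, S.tau_b]
  have hρ : ((S.j * S.t) * S.u1) * ((S.j * S.t) * S.u1) * ((S.j * S.t) * S.u1) = 1 := by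
    apply S.hfix _ S.a S.b (S.u1⁻¹ • S.b) S.hab (Ne.symm (S.toPre.smul_b_ne_a hui))
      (Ne.symm (S.toPre.smul_b_ne_b hui hui1))
    · rw [mul_smul, mul_smul, e1, e2, e3]
    · rw [mul_smul, mul_smul, e2, e3, e1]
    · rw [mul_smul, mul_smul, e3, e1, e2]
  have hτi : (S.j * S.t)⁻¹ = S.j * S.t := by rw [inv_eq_iff_mul_eq_one]; exact S.tau_sq
  obtain ⟨τ, hτ⟩ : ∃ τ, τ = S.j * S.t := ⟨_, rfl⟩
  rw [← hτ] at hρ hτi ⊢
  calc τ * S.u1 * τ = ((τ * S.u1) * (τ * S.u1) * (τ * S.u1)) * (S.u1⁻¹ * τ⁻¹ * S.u1⁻¹) := by group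
    _ = S.u1⁻¹ * τ * S.u1⁻¹ := by rw [hρ, one_mul, hτi]

theorem ji : S.j⁻¹ = S.j := by rw [inv_eq_iff_mul_eq_one]; exact S.hjj

theorem tj' : S.t * S.j = S.j * S.t := by
  have h := S.tj
  calc S.t * S.j = (S.t * S.j * S.t⁻¹) * S.t := by group
    _ = S.j * S.t := by rw [h]

theorem t_j_smul (x : Ω) : S.t • (S.j • x) = S.j • (S.t • x) := by
  rw [← mul_smul, ← mul_smul, S.tj']

theorem jj_smul (x : Ω) : S.j • (S.j • x) = x := by
  rw [← mul_smul, S.hjj, one_smul]

/-- `j` is central in the two point stabiliser -/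
theorem j_central {h : G} (ha : h • S.a = S.a) (hb : h • S.b = S.b) : h * S.j = S.j * h := by
  have h1 : h * S.j * h⁻¹ = S.j := by
    apply S.j_unique
    · rw [mul_smul, mul_smul, inv_smul_eq_iff.2 ha.symm, S.hja, ha]
    · rw [mul_smul, mul_smul, inv_smul_eq_iff.2 hb.symm, S.hjb, hb]
    · calc h * S.j * h⁻¹ * (h * S.j * h⁻¹) = h * (S.j * S.j) * h⁻¹ := by group
        _ = 1 := by rw [S.hjj]; group
    · intro e
      apply S.hj1
      calc S.j = h⁻¹ * (h * S.j * h⁻¹) * h := by group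
        _ = 1 := by rw [e]; group
  calc h * S.j = (h * S.j * h⁻¹) * h := by group
    _ = S.j * h := by rw [h1]

theorem P1 {d : G} (da : d • S.a = S.a) (db : d • S.b = S.b) (d3 : d * d * d = 1) (d1 : d ≠ 1) :
    S.u1 • (d • S.c) = S.j • (d • (d • S.c)) := by
  have hv1 : d * S.u1 * d⁻¹ ∈ S.U := S.hUnorm d da _ S.hu1
  have hv2 : d * (d * S.u1 * d⁻¹) * d⁻¹ ∈ S.U := S.hUnorm d da _ hv1
  have hw : S.u1 * (d * S.u1 * d⁻¹) * (d * (d * S.u1 * d⁻¹) * d⁻¹) = 1 := by
    by_contra hne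
    apply d1
    apply S.toPre.H_free da db (S.U.mul_mem (S.U.mul_mem S.hu1 hv1) hv2) hne
    have e3 : d * (d * (d * S.u1 * d⁻¹) * d⁻¹) * d⁻¹ = S.u1 := by
      calc d * (d * (d * S.u1 * d⁻¹) * d⁻¹) * d⁻¹ = (d * d * d) * S.u1 * (d * d * d)⁻¹ := by group
        _ = S.u1 := by rw [d3]; group
    calc d * (S.u1 * (d * S.u1 * d⁻¹) * (d * (d * S.u1 * d⁻¹) * d⁻¹)) * d⁻¹
        = (d * S.u1 * d⁻¹) * (d * (d * S.u1 * d⁻¹) * d⁻¹) *
            (d * (d * (d * S.u1 * d⁻¹) * d⁻¹) * d⁻¹) := by group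
      _ = (d * S.u1 * d⁻¹) * (d * (d * S.u1 * d⁻¹) * d⁻¹) * S.u1 := by rw [e3]
      _ = S.u1 * ((d * S.u1 * d⁻¹) * (d * (d * S.u1 * d⁻¹) * d⁻¹)) :=
          S.U_comm (S.U.mul_mem hv1 hv2) S.hu1
      _ = S.u1 * (d * S.u1 * d⁻¹) * (d * (d * S.u1 * d⁻¹) * d⁻¹) := by group
  have e1 : S.u1 * (d * S.u1 * d⁻¹) = (d * (d * S.u1 * d⁻¹) * d⁻¹)⁻¹ :=
    eq_inv_of_mul_eq_one_left hw
  calc S.u1 • (d • S.c) = S.u1 • ((d * S.u1 * d⁻¹) • S.b) := by rw [S.H_smul_c db]
    _ = (S.u1 * (d * S.u1 * d⁻¹)) • S.b := (mul_smul _ _ _).symm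
    _ = (d * (d * S.u1 * d⁻¹) * d⁻¹)⁻¹ • S.b := by rw [e1]
    _ = S.j • ((d * (d * S.u1 * d⁻¹) * d⁻¹) • S.b) := by rw [S.j_smul hv2]
    _ = S.j • (d • ((d * S.u1 * d⁻¹) • S.b)) := by rw [S.toPre.conj_smul_b _ db]
    _ = S.j • (d • (d • S.c)) := by rw [← S.H_smul_c db]

/-- `t` inverts the elements of order three of the two point stabiliser -/
theorem inv_of_order_three {d : G} (da : d • S.a = S.a) (db : d • S.b = S.b)
    (d3 : d * d * d = 1) : S.t * d * S.t⁻¹ = d⁻¹ := by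
  by_cases d1 : d = 1
  · rw [d1]; group
  obtain ⟨d', hd'⟩ : ∃ d', d' = S.t * d * S.t⁻¹ := ⟨_, rfl⟩
  rw [← hd']
  have d'a : d' • S.a = S.a := by rw [hd']; exact S.conj_t_a db
  have d'b : d' • S.b = S.b := by rw [hd']; exact S.conj_t_b da
  have d'3 : d' * d' * d' = 1 := by
    rw [hd']
    calc S.t * d * S.t⁻¹ * (S.t * d * S.t⁻¹) * (S.t * d * S.t⁻¹) = S.t * (d * d * d) * S.t⁻¹ := by
          group
      _ = 1 := by rw [d3]; group
  have d'1 : d' ≠ 1 := by
    intro h
    apply d1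
    rw [hd'] at h
    calc d = S.t⁻¹ * (S.t * d * S.t⁻¹) * S.t := by group
      _ = 1 := by rw [h]; group
  -- `t d' = d t` and `t d = d' t`
  have htd' : ∀ z : Ω, S.t • (d' • z) = d • (S.t • z) := by
    intro z
    rw [← mul_smul, ← mul_smul, hd']
    have : S.t * (S.t * d * S.t⁻¹) = d * S.t := by
      calc S.t * (S.t * d * S.t⁻¹) = (S.t * S.t) * d * S.t⁻¹ := by group
        _ = d * S.t := by rw [S.htt, S.ti, one_mul]
    rw [this]
  have htd : ∀ z : Ω, S.t • (d • z) = d' • (S.t • z) := by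
    intro z
    rw [← mul_smul, ← mul_smul, hd']
    have : S.t * d * S.t⁻¹ * S.t = S.t * d := by group
    rw [this]
  have hd3 : ∀ z : Ω, d • (d • (d • z)) = z := by
    intro z
    rw [← mul_smul, ← mul_smul, d3, one_smul]
  -- the element `e = d * d`
  have ea : (d * d) • S.a = S.a := by rw [mul_smul, da, da]
  have eb : (d * d) • S.b = S.b := by rw [mul_smul, db, db]
  have e3 : (d * d) * (d * d) * (d * d) = 1 := by
    calc (d * d) * (d * d) * (d * d) = (d * d * d) * (d * d * d) := by group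
      _ = 1 := by rw [d3, one_mul]
  have e1 : d * d ≠ 1 := by
    intro h
    apply d1
    calc d = (d * d)⁻¹ * (d * d * d) := by group
      _ = 1 := by rw [d3, h]; group
  have p1 := S.P1 d'a d'b d'3 d'1
  have p2 := S.P1 ea eb e3 e1
  have p2' : S.u1 • (d • (d • S.c)) = S.j • (d • S.c) := by
    have : (d * d) • ((d * d) • S.c) = d • S.c := by
      rw [mul_smul, mul_smul, hd3]
    rw [this, mul_smul] at p2
    exact p2
  have hrel := S.tau_rel
  have R' : S.u1 * ((S.j * S.t) * S.u1 * (S.j * S.t)) * S.u1 = S.j * S.t := by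
    rw [hrel]; group
  have R'' : S.u1 • (S.j • (S.t • (S.u1 • (S.j • (S.t • (S.u1 • (d' • S.c))))))) =
      S.j • (S.t • (d' • S.c)) := by
    have := congrArg (fun g : G => g • (d' • S.c)) R'
    simp only [mul_smul] at this
    exact this
  rw [p1, S.t_j_smul, S.jj_smul, htd', htd', S.htc, p2', S.t_j_smul, S.jj_smul, htd, S.htc,
    p1] at R''
  have hcc : d' • (d' • S.c) = d • S.c := smul_left_cancel _ R''
  have hdd : d' * d' = d := by
    have h1 : d⁻¹ * (d' * d') = 1 := by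
      apply S.hfix _ _ _ _ S.hab S.hac S.hbc
      · rw [mul_smul, mul_smul, d'a, d'a, inv_smul_eq_iff, da]
      · rw [mul_smul, mul_smul, d'b, d'b, inv_smul_eq_iff, db]
      · rw [mul_smul, mul_smul, hcc, inv_smul_smul]
    calc d' * d' = d * (d⁻¹ * (d' * d')) := by group
      _ = d := by rw [h1, mul_one]
  have h2 : d * d' = 1 := by rw [← hdd]; exact d'3
  exact eq_inv_of_mul_eq_one_right h2

end QSetup

end Cfsg.Agent.Lib.Helper52.S3TQ
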