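import Mathlib
import Cfsg.Agent.Lib.Helper96.SylAltBasic

/-!
# S2221 piece F3: an odd element supported in `U` centralizing the even elements supported
in `U` is central in `S`.
-/

set_option autoImplicit false
set_option linter.unusedSectionVars false

namespace Cfsg.Agent.Lib.Helper52.SAF3

open Equiv Cfsg.Agent.Lib.Lead.SylTwoSym Cfsg.Agent.Lib.Helper96.SylAltStmt
  Cfsg.Agent.Lib.Helper96.SylAltBasic

variable {Ω : Type} [DecidableEq Ω] [Fintype Ω]

theorem supOn_mul {x y : Perm Ω} {U : Set Ω} (hx : SupOn x U) (hy : SupOn y U) :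
    SupOn (x * y) U := by
  intro a ha
  rw [Perm.mul_apply, hy a ha, hx a ha]

theorem main : F3' := by
  intro hSPLIT Ω _ _ S hS U hU hex u hu huU hcomm hsign s hs
  obtain ⟨τ, hτ, a, ha, hm⟩ := hex
  have hτU : SupOn τ U := supOn_of_swap_moves hU hτ ha hm
  have hτsign : Perm.sign τ = -1 := sign_of_mem_swapsIn hτ
  have huτ : u * τ ∈ ev S := mem_ev.mpr ⟨S.mul_mem hu hτ.1, by rw [map_mul, hsign, hτsign]; rfl⟩
  have huτU : SupOn (u * τ) U := supOn_mul huU hτU
  have h1 : u * (u * τ) = (u * τ) * u := hcomm _ huτ huτU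
  have h2 : u * τ = τ * u := by
    have : u * (u * τ) = u * (τ * u) := by rw [h1]; group
    exact mul_left_cancel this
  obtain ⟨s₁, hs₁, s₂, hs₂, hs₁U, hs₂U, rfl⟩ := hSPLIT Ω S hS U hU s hs
  have h3 : u * s₂ = s₂ * u := commute_of_supOn_fixOn huU hs₂U
  have h4 : u * s₁ = s₁ * u := by
    rcases Int.units_eq_one_or (Perm.sign s₁) with h | h
    · exact hcomm s₁ (mem_ev.mpr ⟨hs₁, h⟩) hs₁U
    · have h5 : s₁ * τ ∈ ev S :=
        mem_ev.mpr ⟨S.mul_mem hs₁ hτ.1, by rw [map_mul, h, hτsign]; rfl⟩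
      have h6 := hcomm _ h5 (supOn_mul hs₁U hτU)
      have : u * s₁ * τ = s₁ * u * τ := by
        calc u * s₁ * τ = u * (s₁ * τ) := by group
          _ = s₁ * τ * u := h6
          _ = s₁ * (τ * u) := by group
          _ = s₁ * (u * τ) := by rw [h2]
          _ = s₁ * u * τ := by group
      exact mul_right_cancel this
  calc u * (s₁ * s₂) = (u * s₁) * s₂ := by group
    _ = s₁ * u * s₂ := by rw [h4]
    _ = s₁ * (u * s₂) := by group
    _ = s₁ * (s₂ * u) := by rw [h3]
    _ = s₁ * s₂ * u := by group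

end Cfsg.Agent.Lib.Helper52.SAF3
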