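import Mathlib
import Cfsg.Agent.Lib.Helper96.SylAltBasic

/-!
# S2221 piece ZC: for `6 ≤ |Ω|` the centre of `S ⊓ A_Ω` is central in `S`.
-/

set_option autoImplicit false
set_option linter.unusedSectionVars false

namespace Cfsg.Agent.Lib.Helper52.SAZC

open Equiv Cfsg.Agent.Lib.Lead.SylTwoSym Cfsg.Agent.Lib.Helper96.SylAltStmt
  Cfsg.Agent.Lib.Helper96.SylAltBasic

variable {Ω : Type} [DecidableEq Ω] [Fintype Ω]

/-- a transposition moves a point -/
theorem exists_moved {τ : Perm Ω} (h : τ.IsSwap) : ∃ a, τ a ≠ a := by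
  obtain ⟨p, q, hpq, rfl⟩ := h
  exact ⟨p, by rw [Equiv.swap_apply_left]; exact Ne.symm hpq⟩

/-- if `x` commutes with `τ * τ'` for two distinct transpositions of `S` and `τ` moves `a`,
then `x a` is moved by `τ` or by `τ'` -/
theorem moved_or {S : Subgroup (Perm Ω)} (hP : IsPGroup 2 S) {τ τ' x : Perm Ω}
    (hτ : τ ∈ swapsIn S) (hτ' : τ' ∈ swapsIn S) (hne : τ ≠ τ')
    (hc : x * (τ * τ') = (τ * τ') * x) {a : Ω} (ha : τ a ≠ a) :
    τ (x a) ≠ x a ∨ τ' (x a) ≠ x a := by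
  by_contra hcon
  push Not at hcon
  obtain ⟨h1, h2⟩ := hcon
  have hd := disjoint_of_ne hP hτ hτ' hne a
  have h3 : τ' a = a := by
    rcases hd with h | h
    · exact absurd h ha
    · exact h
  have h4 := congrArg (fun f : Perm Ω => f a) hc
  simp only [Perm.mul_apply] at h4
  rw [h3, h2, h1] at h4
  exact ha (x.injective h4)

theorem main : ZC' := by
  intro hCARD Ω _ _ S hS h6 x hx hcomm
  have hP : IsPGroup 2 S := hS.1
  obtain ⟨hxS, -⟩ := mem_ev.mp hx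
  have hcard := (hCARD Ω S hS).1
  have h3 : 2 < (swapsIn S).ncard := by
    rw [← Nat.card_coe_set_eq, hcard]
    omega
  obtain ⟨t₁, t₂, t₃, ht₁, ht₂, ht₃, h12, h13, h23⟩ := (Set.two_lt_ncard_iff).mp h3
  have hev : ∀ τ ∈ swapsIn S, ∀ τ' ∈ swapsIn S, τ * τ' ∈ ev S := by
    intro τ hτ τ' hτ'
    refine mem_ev.mpr ⟨S.mul_mem hτ.1 hτ'.1, ?_⟩
    rw [map_mul, sign_of_mem_swapsIn hτ, sign_of_mem_swapsIn hτ']
    rfl
  -- for each transposition there are two other distinct ones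
  have hother : ∀ τ ∈ swapsIn S, ∃ τ' ∈ swapsIn S, ∃ τ'' ∈ swapsIn S,
      τ ≠ τ' ∧ τ ≠ τ'' ∧ τ' ≠ τ'' := by
    intro τ hτ
    by_cases e1 : τ = t₁
    · exact ⟨t₂, ht₂, t₃, ht₃, e1 ▸ h12, e1 ▸ h13, h23⟩
    · by_cases e2 : τ = t₂
      · exact ⟨t₁, ht₁, t₃, ht₃, e1, e2 ▸ h23, h13⟩
      · exact ⟨t₁, ht₁, t₂, ht₂, e1, e2, h12⟩
  -- `x` commutes with every transposition of `S`
  have hxτ : ∀ τ ∈ swapsIn S, x * τ = τ * x := by
    intro τ hτ
    obtain ⟨τ', hτ', τ'', hτ'', hn1, hn2, hn3⟩ := hother τ hτ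
    obtain ⟨a, ha⟩ := exists_moved hτ.2
    have hm1 := moved_or hP hτ hτ' hn1 (hcomm _ (hev τ hτ τ' hτ')) ha
    have hm2 := moved_or hP hτ hτ'' hn2 (hcomm _ (hev τ hτ τ'' hτ'')) ha
    have hmove : τ (x a) ≠ x a := by
      by_contra hfix
      rcases hm1 with h | h
      · exact h hfix
      · rcases hm2 with h' | h'
        · exact h' hfix
        · exact hn3 (eq_of_moves hP hτ' hτ'' h h')
    have hσ : x * τ * x⁻¹ ∈ swapsIn S := conj_mem_swapsIn hτ hxS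
    have hσmove : (x * τ * x⁻¹) (x a) ≠ x a := by
      have e : x⁻¹ (x a) = a := Perm.inv_eq_iff_eq.mpr rfl
      rw [Perm.mul_apply, Perm.mul_apply, e]
      exact fun h => ha (x.injective h)
    have heq : x * τ * x⁻¹ = τ := eq_of_moves hP hσ hτ hσmove hmove
    calc x * τ = x * τ * x⁻¹ * x := by group
      _ = τ * x := by rw [heq]
  intro s hs
  rcases Int.units_eq_one_or (Perm.sign s) with h | h
  · exact hcomm s (mem_ev.mpr ⟨hs, h⟩)
  · have h5 : s * t₁ ∈ ev S :=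
      mem_ev.mpr ⟨S.mul_mem hs ht₁.1, by rw [map_mul, h, sign_of_mem_swapsIn ht₁]; rfl⟩
    have h7 := hcomm _ h5
    have : x * s * t₁ = s * x * t₁ := by
      calc x * s * t₁ = x * (s * t₁) := by group
        _ = s * t₁ * x := h7
        _ = s * (t₁ * x) := by group
        _ = s * (x * t₁) := by rw [hxτ t₁ ht₁]
        _ = s * x * t₁ := by group
    exact mul_right_cancel this

end Cfsg.Agent.Lib.Helper52.SAZC
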