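import Mathlib
import Cfsg.Agent.Lib.Helper38.Sp4Stmt

set_option autoImplicit false

/-!
# S5320 piece CD1: the criterion data in the self-normalizing case
-/

namespace Cfsg.Agent.Lib.Helper52.Sp4CD1

open Cfsg.Agent.Lib.Helper38.Sp4Stmt

universe u v

section

variable {G : Type u} {L : Type v} [Group G] [Group L] {ψ : L × L →* G} {τ : G} {ε : L}
  {Q : Subgroup L}

theorem tau_mem : τ ∈ S0 ψ τ Q := Subgroup.subset_closure (Or.inl rfl)

theorem psi_mem {a b : L} (ha : a ∈ Q) (hb : b ∈ Q) : ψ (a, b) ∈ S0 ψ τ Q :=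
  Subgroup.subset_closure (Or.inr ⟨a, ha, b, hb, rfl⟩)

theorem tau_ne_one (hD : Data ψ τ ε) : τ ≠ 1 := by
  intro h
  apply hD.tau_not 1 1
  rw [h]
  exact (map_one ψ).symm

theorem S0_ne_bot (hD : Data ψ τ ε) : S0 ψ τ Q ≠ ⊥ := by
  intro h
  have h1 : τ ∈ S0 ψ τ Q := tau_mem
  rw [h, Subgroup.mem_bot] at h1
  exact tau_ne_one hD h1

/-- the `closed` clause from SCL1 and SCL2 -/
theorem closed_of [Finite G] (hSCL1 : SCL1.{u, v}) (hSCL2 : SCL2.{u, v}) (hD : Data ψ τ ε)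
    (hQ : QData ε Q) (T : Subgroup G) (hT : T ≤ S0 ψ τ Q) (hne : T ≠ ⊥)
    (hcl : ∀ t ∈ T, ∀ g : G, g * t * g⁻¹ ∈ S0 ψ τ Q → g * t * g⁻¹ ∈ T) : T = S0 ψ τ Q := by
  have hz : ψ (ε, 1) ∈ T := by
    apply hSCL1 G L ψ τ ε Q hD hQ T hT hne
    intro x hx s hs
    exact hcl x hx s ((S0 ψ τ Q).mul_mem ((S0 ψ τ Q).mul_mem hs (hT hx)) ((S0 ψ τ Q).inv_mem hs))
  exact le_antisymm hT (hSCL2 G L ψ τ ε Q hD hQ T hT hz hcl)

/-- an element centralizing a subgroup normalizes it -/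
theorem mem_normalizer_of_cent (H : Subgroup G) (g : G) (hg : ∀ r ∈ H, g * r = r * g) :
    g ∈ Subgroup.normalizer (H : Set G) := by
  rw [Subgroup.mem_normalizer_iff]
  intro h
  constructor
  · intro hh
    have : g * h * g⁻¹ = h := by rw [hg h hh, mul_inv_cancel_right]
    rw [this]; exact hh
  · intro hh
    have h1 := hg _ hh
    have h2 : h = g * h * g⁻¹ := by
      have : g * (g * h * g⁻¹) = g * h := by
        rw [h1]; group
      have h3 := mul_left_cancel this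
      exact h3.symm
    rw [h2]; exact hh

theorem pow_two_order {x : G} (h : ∃ k : ℕ, x ^ (2 ^ k) = 1) : ∃ e : ℕ, orderOf x = 2 ^ e := by
  obtain ⟨k, hk⟩ := h
  obtain ⟨m, -, hm⟩ := (Nat.dvd_prime_pow Nat.prime_two).1 (orderOf_dvd_of_pow_eq_one hk)
  exact ⟨m, hm⟩

/-- elements of `S0` are generators of the `norm_gen` clause (for any family containing `S0`) -/
theorem S0_gen (hS2G : S2G.{u, v}) (hD : Data ψ τ ε) (hQ : QData ε Q) (ℛ : Set (Subgroup G))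
    (hℛ : S0 ψ τ Q ∈ ℛ) (s : G) (hs : s ∈ S0 ψ τ Q) :
    s ∈ {h : G | h ∈ Subgroup.normalizer ((S0 ψ τ Q : Subgroup G) : Set G) ∧ ∃ R ∈ ℛ,
      h ∈ Subgroup.closure {k : G | k ∈ Subgroup.normalizer (R : Set G) ∧
        ∃ e : ℕ, orderOf k = 2 ^ e}} := by
  have hn : s ∈ Subgroup.normalizer ((S0 ψ τ Q : Subgroup G) : Set G) :=
    Subgroup.le_normalizer hs
  refine ⟨hn, S0 ψ τ Q, hℛ, Subgroup.subset_closure ⟨hn, ?_⟩⟩
  exact pow_two_order (hS2G G L ψ τ ε Q hD hQ s hs)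

end

theorem main : CD1.{u, v} := by
  intro _hSNF hS2G hNORM hSCL1 hSCL2 G L _ _ _ ψ τ ε Q hD hQ hself
  have hnorm : ∀ n : G, n ∈ Subgroup.normalizer ((S0 ψ τ Q : Subgroup G) : Set G) →
      n ∈ S0 ψ τ Q := by
    intro n hn
    obtain ⟨s, hs, a, ha, rfl⟩ := hNORM G L ψ τ ε Q hD hQ n hn
    have haQ := hself a ha
    exact (S0 ψ τ Q).mul_mem hs (psi_mem haQ haQ)
  refine ⟨S0_ne_bot hD, closed_of hSCL1 hSCL2 hD hQ, ?_, ?_, ?_, ?_, ?_⟩
  · intro R hR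
    rw [Set.mem_singleton_iff] at hR
    rw [hR]
  · intro R hR s hs r hr
    rw [Set.mem_singleton_iff] at hR
    subst hR
    exact (S0 ψ τ Q).mul_mem ((S0 ψ τ Q).mul_mem hs hr) ((S0 ψ τ Q).inv_mem hs)
  · intro R hR g hg
    rw [Set.mem_singleton_iff] at hR
    subst hR
    exact hnorm g (mem_normalizer_of_cent _ g hg)
  · intro R hR
    rw [Set.mem_singleton_iff] at hR
    subst hR
    refine ⟨1, Subgroup.one_mem _, ?_⟩
    intro x hx _
    exact hx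
  · intro n hn
    exact Subgroup.subset_closure
      (S0_gen hS2G hD hQ _ (Set.mem_singleton _) n (hnorm n hn))

end Cfsg.Agent.Lib.Helper52.Sp4CD1
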