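import Mathlib
import Cfsg.Agent.Lib.Helper38.Sp4Stmt
import Cfsg.Agent.Lib.Helper52.Sp4CD1

set_option autoImplicit false

/-!
# S5320 piece CD2: the criterion data in the quaternion case
-/

namespace Cfsg.Agent.Lib.Helper52.Sp4CD2

open Cfsg.Agent.Lib.Helper38.Sp4Stmt Cfsg.Agent.Lib.Helper52.Sp4CD1

universe u v

section

variable {G : Type u} {L : Type v} [Group G] [Group L] {ψ : L × L →* G} {τ : G} {ε : L}
  {Q : Subgroup L}

/-- `z = ψ (ε, 1)` commutes with every element of `S0` -/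
theorem z_central (hD : Data ψ τ ε) (x : G) (hx : x ∈ S0 ψ τ Q) :
    x * ψ (ε, 1) = ψ (ε, 1) * x := by
  have hle : S0 ψ τ Q ≤ Subgroup.centralizer ({ψ (ε, 1)} : Set G) := by
    unfold S0
    rw [Subgroup.closure_le]
    intro y hy
    rw [SetLike.mem_coe, Subgroup.mem_centralizer_iff]
    intro h hh
    rw [Set.mem_singleton_iff] at hh
    subst hh
    rcases hy with rfl | ⟨a, _, b, _, rfl⟩
    · -- τ z τ⁻¹ = ψ (1, ε) = z
      have h1 := hD.tau_conj ε 1
      have h2 : ψ (1, ε) = ψ (ε, 1) := by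
        have : ψ (1, ε) = ψ (ε, 1) * ψ (ε, ε) := by
          rw [← map_mul, Prod.mk_mul_mk, hD.eps_sq, one_mul]
        rw [this, hD.ker_eps, mul_one]
      rw [h2] at h1
      have h3 : y * ψ (ε, 1) = ψ (ε, 1) * y := by
        have : y * ψ (ε, 1) * y⁻¹ * y = ψ (ε, 1) * y := by rw [h1]
        rw [← this]; group
      exact h3.symm
    · rw [← map_mul, ← map_mul, Prod.mk_mul_mk, Prod.mk_mul_mk, hD.eps_comm a, one_mul, mul_one]
  have := hle hx
  rw [Subgroup.mem_centralizer_iff] at this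
  exact (this _ (Set.mem_singleton _)).symm

end

theorem main : CD2.{u, v} := by
  intro _hSNF hS2G hSCL1 hSCL2 hANS hACEN hACT hN2 hNA hDGEN G L _ _ _ ψ τ ε Q w x0 hD hQ hQ8 hX
  obtain ⟨hAle, hAnorm⟩ := hANS G L ψ τ ε Q w hD hQ hQ8
  have hAcen := hACEN G L ψ τ ε Q w hD hQ hQ8
  obtain ⟨hd, hN, -⟩ := hN2 G L ψ τ ε Q w hD hQ hQ8
  obtain ⟨-, hx0⟩ := hNA G L ψ τ ε Q w x0 hD hQ hQ8 hX
  have hdgen := hDGEN G L ψ τ ε Q w x0 hD hQ hQ8 hX
  refine ⟨S0_ne_bot hD, closed_of hSCL1 hSCL2 hD hQ, ?_, ?_, ?_, ?_, ?_⟩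
  · intro R hR
    rcases hR with rfl | hR
    · exact le_refl _
    · rw [Set.mem_singleton_iff] at hR
      rw [hR]; exact hAle
  · intro R hR s hs r hr
    rcases hR with rfl | hR
    · exact (S0 ψ τ Q).mul_mem ((S0 ψ τ Q).mul_mem hs hr) ((S0 ψ τ Q).inv_mem hs)
    · rw [Set.mem_singleton_iff] at hR
      subst hR
      exact hAnorm s hs r hr
  · intro R hR g hg
    rcases hR with rfl | hR
    · exact hAle (hAcen g (fun r hr => hg r (hAle hr)))
    · rw [Set.mem_singleton_iff] at hR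
      subst hR
      exact hAcen g hg
  · intro R hR
    rcases hR with rfl | hR
    · refine ⟨1, Subgroup.one_mem _, ?_⟩
      intro x hx _
      exact hx
    · rw [Set.mem_singleton_iff] at hR
      subst hR
      refine ⟨x0, hx0, ?_⟩
      intro x hx hx'
      apply hACT G L ψ τ ε Q hD hQ x hx
      have h1 := z_central hD _ hx'
      have h2 := hX.tau_z
      -- x0 x x0⁻¹ commutes with z = x0 τ x0⁻¹
      rw [← h2] at h1
      have h3 : x0 * (x * τ) * x0⁻¹ = x0 * (τ * x) * x0⁻¹ := by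
        have e1 : x0 * (x * τ) * x0⁻¹ = x0 * x * x0⁻¹ * (x0 * τ * x0⁻¹) := by group
        have e2 : x0 * (τ * x) * x0⁻¹ = x0 * τ * x0⁻¹ * (x0 * x * x0⁻¹) := by group
        rw [e1, e2, h1]
      exact mul_left_cancel (mul_right_cancel h3)
  · intro n hn
    have hS0 : S0 ψ τ Q ∈ ({S0 ψ τ Q, AA ψ τ ε Q} : Set (Subgroup G)) := Set.mem_insert _ _
    have hs : ∀ s ∈ S0 ψ τ Q, s ∈ Subgroup.closure
        {h : G | h ∈ Subgroup.normalizer ((S0 ψ τ Q : Subgroup G) : Set G) ∧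
          ∃ R ∈ ({S0 ψ τ Q, AA ψ τ ε Q} : Set (Subgroup G)),
          h ∈ Subgroup.closure {k : G | k ∈ Subgroup.normalizer (R : Set G) ∧
            ∃ e : ℕ, orderOf k = 2 ^ e}} := fun s hs =>
      Subgroup.subset_closure (S0_gen hS2G hD hQ _ hS0 s hs)
    have hdm : ψ (w, w) ∈ Subgroup.closure
        {h : G | h ∈ Subgroup.normalizer ((S0 ψ τ Q : Subgroup G) : Set G) ∧
          ∃ R ∈ ({S0 ψ τ Q, AA ψ τ ε Q} : Set (Subgroup G)),
          h ∈ Subgroup.closure {k : G | k ∈ Subgroup.normalizer (R : Set G) ∧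
            ∃ e : ℕ, orderOf k = 2 ^ e}} :=
      Subgroup.subset_closure ⟨hd, AA ψ τ ε Q, Set.mem_insert_of_mem _ (Set.mem_singleton _),
        hdgen⟩
    obtain ⟨s, hsS, h | h | h⟩ := hN n hn
    · rw [h]; exact hs s hsS
    · rw [h]; exact Subgroup.mul_mem _ (hs s hsS) hdm
    · rw [h]; exact Subgroup.mul_mem _ (hs s hsS) (Subgroup.mul_mem _ hdm hdm)

end Cfsg.Agent.Lib.Helper52.Sp4CD2
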